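import Mathlib
import Cfsg.Agent.Lib.CoprimeHyper

/-!
# Traces of subgroups of `MulAut V`, `V` an abelian `p'`-group

The fixed point subgroups `fixS D`, the trace `tr D`, the hyperplanes of an elementary abelian
subgroup `J`, the generation of `V` by the `fixS D`, and the vectors built as products.
-/

set_option autoImplicit false
set_option linter.style.haveILetI false
set_option linter.unusedSectionVars false

namespace Cfsg.Agent.H28.VecA

open Subgroup

universe u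

section cj

variable {G : Type*} [Group G]

/-- The conjugate of a subgroup. -/
def cj (x : G) (D : Subgroup G) : Subgroup G := D.map (MulAut.conj x).toMonoidHom

theorem mem_cj {x y : G} {D : Subgroup G} : y ∈ cj x D ↔ x⁻¹ * y * x ∈ D := by
  constructor
  · rintro ⟨d, hd, rfl⟩
    simpa [mul_assoc] using hd
  · intro h
    exact ⟨_, h, by simp [mul_assoc]⟩

theorem conj_mem_cj {x d : G} {D : Subgroup G} (h : d ∈ D) : x * d * x⁻¹ ∈ cj x D :=
  mem_cj.mpr (by simpa [mul_assoc] using h)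

theorem cj_mul (x y : G) (D : Subgroup G) : cj (x * y) D = cj x (cj y D) := by
  ext g
  simp only [mem_cj]
  have : (x * y)⁻¹ * g * (x * y) = y⁻¹ * (x⁻¹ * g * x) * y := by group
  rw [this]

theorem cj_one (D : Subgroup G) : cj (1 : G) D = D := by
  ext g
  simp [mem_cj]

theorem cj_inv_cj (x : G) (D : Subgroup G) : cj x⁻¹ (cj x D) = D := by
  rw [← cj_mul, inv_mul_cancel, cj_one]

theorem cj_cj_inv (x : G) (D : Subgroup G) : cj x (cj x⁻¹ D) = D := by
  rw [← cj_mul, mul_inv_cancel, cj_one]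

theorem cj_mono {x : G} {D D' : Subgroup G} (h : D ≤ D') : cj x D ≤ cj x D' := Subgroup.map_mono h

theorem cj_inj {x : G} {D D' : Subgroup G} (h : cj x D = cj x D') : D = D' := by
  rw [← cj_inv_cj x D, h, cj_inv_cj]

/-- Equivalence between a subgroup and its conjugate. -/
def cjEquiv (x : G) (D : Subgroup G) : D ≃ cj x D :=
  (MulEquiv.subgroupMap (MulAut.conj x) D).toEquiv

theorem cjEquiv_coe (x : G) (D : Subgroup G) (d : D) : ((cjEquiv x D d : cj x D) : G) = x * d * x⁻¹ :=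
  rfl

theorem card_cj (x : G) (D : Subgroup G) : Nat.card (cj x D) = Nat.card D :=
  (Nat.card_congr (cjEquiv x D)).symm

theorem cj_eq_self_of_comm [Finite G] {x : G} {J Z : Subgroup G} (hZJ : Z ≤ J)
    (h : ∀ y ∈ J, x * y * x⁻¹ * y⁻¹ ∈ Z) : cj x J = J := by
  refine Subgroup.eq_of_le_of_card_ge ?_ (by rw [card_cj])
  rintro _ ⟨y, hy, rfl⟩
  have h2 := J.mul_mem (hZJ (h y hy)) hy
  simpa using h2

end cj

variable {V : Type u} [CommGroup V]

/-- Fixed points. -/
def fixS (D : Subgroup (MulAut V)) : Subgroup V where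
  carrier := {v | ∀ d ∈ D, d v = v}
  mul_mem' := by
    intro a b ha hb d hd
    rw [map_mul, ha d hd, hb d hd]
  one_mem' := by
    intro d _
    exact map_one d
  inv_mem' := by
    intro a ha d hd
    rw [map_inv, ha d hd]

theorem mem_fixS {D : Subgroup (MulAut V)} {v : V} : v ∈ fixS D ↔ ∀ d ∈ D, d v = v := Iff.rfl

theorem fixS_anti {D D' : Subgroup (MulAut V)} (h : D ≤ D') : fixS D' ≤ fixS D :=
  fun _ hv d hd => hv d (h hd)

/-- The stabilizer of a point. -/
def stabS (v : V) : Subgroup (MulAut V) where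
  carrier := {g | g v = v}
  mul_mem' := by
    intro a b ha hb
    show a (b v) = v
    rw [show b v = v from hb, show a v = v from ha]
  one_mem' := rfl
  inv_mem' := by
    intro a ha
    show a⁻¹ v = v
    exact (MulEquiv.symm_apply_eq a).mpr (Eq.symm ha)

theorem mem_fixS_iff_le {D : Subgroup (MulAut V)} {v : V} : v ∈ fixS D ↔ D ≤ stabS v :=
  Iff.rfl

theorem mem_fixS_sup {D D' : Subgroup (MulAut V)} {v : V} (h : v ∈ fixS D) (h' : v ∈ fixS D') :
    v ∈ fixS (D ⊔ D') :=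
  mem_fixS_iff_le.mpr (sup_le (mem_fixS_iff_le.mp h) (mem_fixS_iff_le.mp h'))

theorem mem_fixS_sup_zpowers {D : Subgroup (MulAut V)} {v : V} {x : MulAut V} (h : v ∈ fixS D)
    (h' : x v = v) : v ∈ fixS (D ⊔ zpowers x) :=
  mem_fixS_iff_le.mpr (sup_le (mem_fixS_iff_le.mp h) (zpowers_le.mpr h'))

theorem smul_mem_fixS_cj {D : Subgroup (MulAut V)} {v : V} (x : MulAut V) (h : v ∈ fixS D) :
    x v ∈ fixS (cj x D) := by
  intro y hy
  have h1 : (x⁻¹ * y * x) v = v := h _ (mem_cj.mp hy)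
  have h2 : x⁻¹ (y (x v)) = v := h1
  have h3 : x (x⁻¹ (y (x v))) = x v := congrArg x h2
  rwa [MulAut.apply_inv_self] at h3

section finite

variable [Finite V]

theorem root_mem (W : Subgroup V) {m : ℕ} {v : V} (hm : m.Coprime (Nat.card V)) (h : v ^ m ∈ W) :
    v ∈ W := by
  have h1 : m.Coprime (orderOf v) := Nat.Coprime.coprime_dvd_right (orderOf_dvd_natCard v) hm
  obtain ⟨k, hk⟩ := exists_pow_eq_self_of_coprime h1
  rw [← hk]
  exact W.pow_mem h k

theorem eq_one_of_pow {m : ℕ} {v : V} (hm : m.Coprime (Nat.card V)) (h : v ^ m = 1) : v = 1 := by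
  have : v ∈ (⊥ : Subgroup V) := root_mem ⊥ hm (by rw [h]; exact one_mem _)
  exact this

theorem fixed_of_pow {m : ℕ} {u : V} (x : MulAut V) (hm : m.Coprime (Nat.card V))
    (h : x (u ^ m) = u ^ m) : x u = u := by
  rw [map_pow] at h
  have h1 : (x u * u⁻¹) ^ m = 1 := by
    rw [mul_pow, h, inv_pow, mul_inv_cancel]
  have h2 := eq_one_of_pow hm h1
  exact mul_inv_eq_one.mp h2

/-- The trace. -/
noncomputable def tr (D : Subgroup (MulAut V)) : V →* V :=
  letI : Fintype D := Fintype.ofFinite D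
  { toFun := fun v => ∏ d : D, d.1 v
    map_one' := by simp
    map_mul' := by
      intro a b
      simp [Finset.prod_mul_distrib] }

theorem tr_apply (D : Subgroup (MulAut V)) [inst : Fintype D] (v : V) :
    tr D v = ∏ d : D, d.1 v := by
  have : inst = Fintype.ofFinite D := Subsingleton.elim _ _
  subst this
  rfl

theorem tr_mem_fixS (D : Subgroup (MulAut V)) (v : V) : tr D v ∈ fixS D := by
  classical
  letI : Fintype D := Fintype.ofFinite D
  intro d₀ hd₀
  rw [tr_apply, map_prod]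
  refine Fintype.prod_equiv (Equiv.mulLeft (⟨d₀, hd₀⟩ : D)) _ _ ?_
  intro d
  rfl

theorem tr_fixed {D : Subgroup (MulAut V)} {v : V} (h : v ∈ fixS D) : tr D v = v ^ Nat.card D := by
  classical
  letI : Fintype D := Fintype.ofFinite D
  rw [tr_apply, Nat.card_eq_fintype_card]
  have : ∀ d : D, d.1 v = v := fun d => h d.1 d.2
  simp [this, Finset.card_univ]

theorem tr_conj (x : MulAut V) (D : Subgroup (MulAut V)) (v : V) :
    tr (cj x D) (x v) = x (tr D v) := by
  classical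
  letI : Fintype D := Fintype.ofFinite D
  letI : Fintype (cj x D) := Fintype.ofFinite _
  rw [tr_apply, tr_apply, map_prod]
  refine (Fintype.prod_equiv (cjEquiv x D) _ _ ?_).symm
  intro d
  rw [cjEquiv_coe]
  show x (d.1 v) = x (d.1 (x⁻¹ (x v)))
  simp

theorem tr_comm {x : MulAut V} {D : Subgroup (MulAut V)} (h : ∀ d ∈ D, Commute x d) (v : V) :
    tr D (x v) = x (tr D v) := by
  classical
  letI : Fintype D := Fintype.ofFinite D
  rw [tr_apply, tr_apply, map_prod]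
  refine Finset.prod_congr rfl ?_
  intro d _
  have h1 := (h d.1 d.2).eq
  have h2 : (x * d.1) v = (d.1 * x) v := by rw [h1]
  exact h2.symm

end finite

/-- A hyperplane of `J`: a coatom in the lattice of subgroups of `J`. -/
def IsHyp (J D : Subgroup (MulAut V)) : Prop :=
  D ≤ J ∧ D ≠ J ∧ ∀ K : Subgroup (MulAut V), D ≤ K → K ≤ J → K = D ∨ K = J

theorem IsHyp.sup_eq {J D D' : Subgroup (MulAut V)} (h : IsHyp J D) (h' : IsHyp J D')
    (hne : D ≠ D') : D ⊔ D' = J := by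
  rcases h.2.2 (D ⊔ D') le_sup_left (sup_le h.1 h'.1) with h1 | h1
  · have h2 : D' ≤ D := by rw [← h1]; exact le_sup_right
    rcases h'.2.2 D h2 h.1 with h3 | h3
    · exact absurd h3 hne
    · exact absurd h3 h.2.1
  · exact h1

theorem IsHyp.sup_zpowers {J D : Subgroup (MulAut V)} (h : IsHyp J D) {x : MulAut V} (hxJ : x ∈ J)
    (hx : x ∉ D) : D ⊔ zpowers x = J := by
  rcases h.2.2 (D ⊔ zpowers x) le_sup_left (sup_le h.1 (zpowers_le.mpr hxJ)) with h1 | h1
  · exact absurd ((le_sup_right : zpowers x ≤ D ⊔ zpowers x) (mem_zpowers x) |> (h1 ▸ ·)) hx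
  · exact h1

theorem IsHyp.sup_of_not_le {J D Z : Subgroup (MulAut V)} (h : IsHyp J D) (hZJ : Z ≤ J)
    (hZ : ¬ Z ≤ D) : D ⊔ Z = J := by
  rcases h.2.2 (D ⊔ Z) le_sup_left (sup_le h.1 hZJ) with h1 | h1
  · exact absurd (h1 ▸ (le_sup_right : Z ≤ D ⊔ Z)) hZ
  · exact h1

theorem IsHyp.cj {J D : Subgroup (MulAut V)} (h : IsHyp J D) {x : MulAut V} (hx : cj x J = J) :
    IsHyp J (cj x D) := by
  have hx' : Cfsg.Agent.H28.VecA.cj x⁻¹ J = J := by
    conv_lhs => rw [← hx]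
    exact cj_inv_cj x J
  refine ⟨hx ▸ cj_mono h.1, ?_, ?_⟩
  · intro he
    rw [← hx] at he
    exact h.2.1 (cj_inj he)
  · intro K hK1 hK2
    have h1 : D ≤ Cfsg.Agent.H28.VecA.cj x⁻¹ K := by
      rw [← cj_inv_cj x D]
      exact cj_mono hK1
    have h2 : Cfsg.Agent.H28.VecA.cj x⁻¹ K ≤ J := by
      rw [← hx']
      exact cj_mono hK2
    rcases h.2.2 _ h1 h2 with h3 | h3
    · left
      rw [← h3, cj_cj_inv]
    · right
      rw [← hx, ← h3, cj_cj_inv]

section span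

variable {p : ℕ} [hp : Fact p.Prime]

open Cfsg.Agent.Lib.CoprimeHyper

theorem normOf_mem_fixS {D : Subgroup (MulAut V)} {c : MulAut V} (hc : c ^ p = 1)
    (hcD : ∀ d ∈ D, Commute d c) {u : V} (hu : u ∈ fixS D) : normOf p c u ∈ fixS (D ⊔ zpowers c) := by
  refine mem_fixS_sup_zpowers ?_ (normOf_fixed hc u)
  intro d hd
  unfold normOf
  rw [map_prod]
  refine Finset.prod_congr rfl fun j _ => ?_
  have h1 := ((hcD d hd).pow_right j.val).eq
  have h2 : (d * c ^ j.val) u = (c ^ j.val * d) u := by rw [h1]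
  refine h2.trans ?_
  show (c ^ j.val) (d u) = _
  rw [hu d hd]

/-- The span of the hyperplane fixed points. -/
def spanS (J : Subgroup (MulAut V)) : Subgroup V :=
  fixS J ⊔ ⨆ (D : Subgroup (MulAut V)) (_ : IsHyp J D), fixS D

theorem fixS_le_spanS_of_hyp {J D : Subgroup (MulAut V)} (h : IsHyp J D) : fixS D ≤ spanS J :=
  le_sup_of_le_right (le_iSup₂_of_le D h le_rfl)

theorem fixS_le_spanS [Finite V] {J : Subgroup (MulAut V)} (hJc : ∀ x ∈ J, ∀ y ∈ J, Commute x y)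
    (hJp : ∀ x ∈ J, x ^ p = 1) (hcop : p.Coprime (Nat.card V)) (D₁ : Subgroup (MulAut V))
    (hD₁ : D₁ ≤ J) : fixS D₁ ≤ spanS J := by
  induction D₁ using WellFoundedGT.induction with
  | _ D₁ ih =>
  by_cases h1 : D₁ = J
  · rw [h1]; exact le_sup_left
  by_cases h2 : IsHyp J D₁
  · exact fixS_le_spanS_of_hyp h2
  have h3 : ∃ K : Subgroup (MulAut V), D₁ ≤ K ∧ K ≤ J ∧ K ≠ D₁ ∧ K ≠ J := by
    by_contra hcon
    push Not at hcon
    refine h2 ⟨hD₁, h1, fun K hK1 hK2 => ?_⟩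
    by_cases hK3 : K = D₁
    · exact Or.inl hK3
    · exact Or.inr (hcon K hK1 hK2 hK3)
  obtain ⟨K, hK1, hK2, hK3, hK4⟩ := h3
  obtain ⟨x, hxK, hxD⟩ := SetLike.exists_of_lt (lt_of_le_of_ne hK1 (Ne.symm hK3))
  obtain ⟨y, hyJ, hyK⟩ := SetLike.exists_of_lt (lt_of_le_of_ne hK2 hK4)
  have hxJ := hK2 hxK
  have hxy : x * y = y * x := (hJc x hxJ y hyJ).eq
  -- each norm lands in the span
  have hnorm : ∀ c ∈ J, c ∉ D₁ → ∀ u ∈ fixS D₁, normOf p c u ∈ spanS J := by
    intro c hcJ hcD u hu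
    have h4 : D₁ < D₁ ⊔ zpowers c := by
      refine lt_of_le_of_ne le_sup_left ?_
      intro he
      apply hcD
      rw [he]
      exact (le_sup_right : zpowers c ≤ D₁ ⊔ zpowers c) (mem_zpowers c)
    have h5 : D₁ ⊔ zpowers c ≤ J := sup_le hD₁ (zpowers_le.mpr hcJ)
    exact ih _ h4 h5 (normOf_mem_fixS (hJp c hcJ) (fun d hd => hJc d (hD₁ hd) c hcJ) hu)
  intro v hv
  have hid := rank_two_identity (p := p) hxy (hJp x hxJ) (hJp y hyJ) v
  have hy1 : y ∉ D₁ := fun h => hyK (hK1 h)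
  have hc : ∀ i : ZMod p, x * y ^ i.val ∉ D₁ := by
    intro i hi
    have h6 : y ^ i.val ∈ K := by
      have := K.mul_mem (K.inv_mem hxK) (hK1 hi)
      simpa using this
    by_cases hi0 : i = 0
    · subst hi0
      simp at hi
      exact hxD hi
    · -- `i` is a unit
      have hcop2 : (i.val).Coprime p := by
        exact Nat.Coprime.symm ((Nat.Prime.coprime_iff_not_dvd hp.out).mpr (fun hd => hi0 ((ZMod.val_eq_zero i).mp
          (Nat.eq_zero_of_dvd_of_lt hd (ZMod.val_lt i)))))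
      have hord : Nat.Coprime i.val (orderOf y) :=
        Nat.Coprime.coprime_dvd_right (orderOf_dvd_of_pow_eq_one (hJp y hyJ)) hcop2
      obtain ⟨k, hk⟩ := exists_pow_eq_self_of_coprime hord
      apply hyK
      rw [← hk]
      exact K.pow_mem h6 k
  have h7 : normOf p y v ∈ fixS D₁ := fixS_anti le_sup_left (normOf_mem_fixS (hJp y hyJ)
    (fun d hd => hJc d (hD₁ hd) y hyJ) hv)
  have h8 : v ^ p ∈ spanS J := by
    have h9 : v ^ p = (normOf p y v * ∏ i : ZMod p, normOf p (x * y ^ i.val) v) *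
        (normOf p x (normOf p y v))⁻¹ := eq_mul_inv_of_mul_eq hid.symm
    rw [h9]
    refine (spanS J).mul_mem ((spanS J).mul_mem (hnorm y hyJ hy1 v hv) ?_)
      ((spanS J).inv_mem (hnorm x hxJ hxD _ h7))
    refine Subgroup.prod_mem _ fun i _ => ?_
    have hcJ : x * y ^ i.val ∈ J := J.mul_mem hxJ (J.pow_mem hyJ _)
    exact hnorm _ hcJ (hc i) v hv
  exact root_mem _ hcop h8

/-- The span is everything. -/
theorem spanS_eq_top [Finite V] {J : Subgroup (MulAut V)} (hJc : ∀ x ∈ J, ∀ y ∈ J, Commute x y)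
    (hJp : ∀ x ∈ J, x ^ p = 1) (hcop : p.Coprime (Nat.card V)) (v : V) : v ∈ spanS J := by
  refine fixS_le_spanS hJc hJp hcop ⊥ bot_le ?_
  intro d hd
  rw [Subgroup.mem_bot] at hd
  rw [hd]
  rfl

/-- If `J` has no fixed points, a nontrivial `a` moves something in some `fixS D`. -/
theorem exists_hyp_move [Finite V] {J : Subgroup (MulAut V)} (hJc : ∀ x ∈ J, ∀ y ∈ J, Commute x y)
    (hJp : ∀ x ∈ J, x ^ p = 1) (hcop : p.Coprime (Nat.card V)) (hJ : fixS J = ⊥) {a : MulAut V}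
    (ha : a ≠ 1) : ∃ D, IsHyp J D ∧ ∃ v ∈ fixS D, a v ≠ v := by
  by_contra hcon
  push Not at hcon
  apply ha
  ext v
  show a v = v
  have h1 : spanS J ≤ fixS (zpowers a) := by
    refine sup_le ?_ (iSup₂_le fun D hD => ?_)
    · rw [hJ]; exact bot_le
    · intro u hu
      refine mem_fixS_iff_le.mpr (zpowers_le.mpr ?_)
      exact hcon D hD u hu
  exact h1 (spanS_eq_top hJc hJp hcop v) a (mem_zpowers a)

end span

section vectors

variable {p : ℕ} [hp : Fact p.Prime] [Finite V]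

theorem card_coprime_of_le {J D : Subgroup (MulAut V)} (hJp : ∀ x ∈ J, x ^ p = 1) (hDJ : D ≤ J)
    (hcop : p.Coprime (Nat.card V)) : (Nat.card D).Coprime (Nat.card V) := by
  have h1 : IsPGroup p D := by
    intro g
    refine ⟨1, ?_⟩
    apply Subtype.ext
    simpa using hJp g.1 (hDJ g.2)
  obtain ⟨n, hn⟩ := IsPGroup.iff_card.mp h1
  rw [hn]
  exact Nat.Coprime.pow_left n hcop

/-- A trace over a hyperplane kills fixed points of any other hyperplane. -/
theorem tr_other {J D D' : Subgroup (MulAut V)} (hJc : ∀ x ∈ J, ∀ y ∈ J, Commute x y)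
    (hJ : fixS J = ⊥) (hD : IsHyp J D) (hD' : IsHyp J D') (hne : D ≠ D') {w : V} (hw : w ∈ fixS D') :
    tr D w = 1 := by
  have h1 : tr D w ∈ fixS D := tr_mem_fixS D w
  have h2 : tr D w ∈ fixS D' := by
    intro d' hd'
    have h3 := tr_comm (x := d') (D := D) (fun d hd => hJc d' (hD'.1 hd') d (hD.1 hd)) w
    rw [hw d' hd'] at h3
    exact h3.symm
  have h4 := mem_fixS_sup h1 h2
  rw [hD.sup_eq hD' hne, hJ] at h4
  exact h4

/-- The trace of a product of vectors. -/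
theorem tr_prod {J D' : Subgroup (MulAut V)} (hJc : ∀ x ∈ J, ∀ y ∈ J, Commute x y) (hJ : fixS J = ⊥)
    (hD' : IsHyp J D') (Λ : Finset (Subgroup (MulAut V))) (hΛ : ∀ D ∈ Λ, IsHyp J D)
    (f : Subgroup (MulAut V) → V) (hf : ∀ D ∈ Λ, f D ∈ fixS D) (hD'Λ : D' ∈ Λ) :
    tr D' (∏ D ∈ Λ, f D) = f D' ^ Nat.card D' := by
  classical
  rw [map_prod, Finset.prod_eq_single D']
  · exact tr_fixed (hf D' hD'Λ)
  · intro D hD hne
    exact tr_other hJc hJ hD' (hΛ D hD) hne.symm (hf D hD)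
  · intro h
    exact absurd hD'Λ h

theorem tr_prod_not_mem {J D' : Subgroup (MulAut V)} (hJc : ∀ x ∈ J, ∀ y ∈ J, Commute x y)
    (hJ : fixS J = ⊥) (hD' : IsHyp J D') (Λ : Finset (Subgroup (MulAut V))) (hΛ : ∀ D ∈ Λ, IsHyp J D)
    (f : Subgroup (MulAut V) → V) (hf : ∀ D ∈ Λ, f D ∈ fixS D) (hD'Λ : D' ∉ Λ) :
    tr D' (∏ D ∈ Λ, f D) = 1 := by
  classical
  rw [map_prod]
  refine Finset.prod_eq_one fun D hD => ?_
  have hne : D' ≠ D := fun h => hD'Λ (h ▸ hD)
  exact tr_other hJc hJ hD' (hΛ D hD) hne (hf D hD)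

/-- The vector with trace trivial on `D₀` and nontrivial on all the other non-degenerate
hyperplanes. -/
theorem exists_vec {J : Subgroup (MulAut V)} (hJc : ∀ x ∈ J, ∀ y ∈ J, Commute x y)
    (hJp : ∀ x ∈ J, x ^ p = 1) (hcop : p.Coprime (Nat.card V)) (hJ : fixS J = ⊥)
    {D₀ : Subgroup (MulAut V)} (hD₀ : IsHyp J D₀) :
    ∃ v : V, tr D₀ v = 1 ∧ ∀ D, IsHyp J D → fixS D ≠ ⊥ → D ≠ D₀ → tr D v ≠ 1 := by
  classical
  have hne : ∀ D : Subgroup (MulAut V), fixS D ≠ ⊥ → ∃ w ∈ fixS D, w ≠ 1 := fun D h =>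
    (Subgroup.ne_bot_iff_exists_ne_one (H := fixS D)).mp h |>.elim fun w hw =>
      ⟨w.1, w.2, fun h => hw (Subtype.ext h)⟩
  let f : Subgroup (MulAut V) → V := fun D => if h : fixS D ≠ ⊥ then (hne D h).choose else 1
  have hf1 : ∀ D, f D ∈ fixS D := by
    intro D
    by_cases h : fixS D ≠ ⊥
    · simp only [f, dif_pos h]
      exact (hne D h).choose_spec.1
    · simp only [f, dif_neg h]
      exact one_mem _
  have hf2 : ∀ D, fixS D ≠ ⊥ → f D ≠ 1 := by
    intro D h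
    simp only [f, dif_pos h]
    exact (hne D h).choose_spec.2
  haveI : Fintype (Subgroup (MulAut V)) := Fintype.ofFinite _
  let Λ : Finset (Subgroup (MulAut V)) :=
    Finset.univ.filter fun D => IsHyp J D ∧ fixS D ≠ ⊥ ∧ D ≠ D₀
  have hΛ : ∀ D ∈ Λ, IsHyp J D := fun D hD => (Finset.mem_filter.mp hD).2.1
  refine ⟨∏ D ∈ Λ, f D, ?_, ?_⟩
  · refine tr_prod_not_mem hJc hJ hD₀ Λ hΛ f (fun D _ => hf1 D) ?_
    intro h
    exact (Finset.mem_filter.mp h).2.2.2 rfl
  · intro D h1 h2 h3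
    have hm : D ∈ Λ := Finset.mem_filter.mpr ⟨Finset.mem_univ _, h1, h2, h3⟩
    rw [tr_prod hJc hJ h1 Λ hΛ f (fun D _ => hf1 D) hm]
    intro h4
    exact hf2 D h2 (eq_one_of_pow (card_coprime_of_le hJp h1.1 hcop) h4)

/-- If `x` fixes `v` and `tr D₀ v = 1` then `tr (cj x D₀) v = 1`. -/
theorem tr_cj_of_fixed {x : MulAut V} {D₀ : Subgroup (MulAut V)} {v : V} (hv : x v = v)
    (h : tr D₀ v = 1) : tr (cj x D₀) v = 1 := by
  have h1 := tr_conj x D₀ v
  rw [hv, h, map_one] at h1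
  exact h1

theorem fixS_cj_ne_bot {x : MulAut V} {D : Subgroup (MulAut V)} (h : fixS D ≠ ⊥) :
    fixS (cj x D) ≠ ⊥ := by
  obtain ⟨w, hw⟩ := (Subgroup.ne_bot_iff_exists_ne_one (H := fixS D)).mp h
  intro he
  have h1 := smul_mem_fixS_cj x w.2
  rw [he, Subgroup.mem_bot] at h1
  have h2 : x w.1 = x 1 := by rw [h1, map_one]
  have h3 : w.1 = 1 := x.injective h2
  exact hw (Subtype.ext h3)

end vectors

end Cfsg.Agent.H28.VecA
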