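import Mathlib
import Cfsg.Agent.Lib.OddPGroup
import Cfsg.Agent.H28.ChiefRank

/-!
# `p`-groups, `p` odd: elements of order `p` and the layer `T`

`R` a `p`-group, `Z` central of order `p`, `T = {y : y ^ p = 1, [y, R] ≤ Z}`.  If the centre of `T` is
`Z` then every element of order `p` lies in `T`.
-/

set_option autoImplicit false

namespace Cfsg.Agent.H28.VecB

open Subgroup
open scoped commutatorElement

universe u

variable {R : Type u} [Group R]

section commutators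

variable {Z : Subgroup R} (hZc : Z ≤ center R)
include hZc

theorem cen_comm {z : R} (hz : z ∈ Z) (g : R) : g * z = z * g :=
  (mem_center_iff.mp (hZc hz) g)

theorem comm_mul_left {x y a : R} (hy : ⁅y, a⁆ ∈ Z) : ⁅x * y, a⁆ = ⁅x, a⁆ * ⁅y, a⁆ := by
  have h1 := cen_comm hZc hy (x * a * x⁻¹ * a⁻¹)
  have h2 : ⁅x * y, a⁆ = ⁅y, a⁆ * (x * a * x⁻¹ * a⁻¹) := by
    have h3 := cen_comm hZc hy x
    have h4 : x * y * a * y⁻¹ * x⁻¹ * a⁻¹ = (x * ⁅y, a⁆) * a * x⁻¹ * a⁻¹ := by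
      simp only [commutatorElement_def]; group
    simp only [commutatorElement_def] at *
    rw [mul_inv_rev, show x * y * a * (y⁻¹ * x⁻¹) * a⁻¹ = x * y * a * y⁻¹ * x⁻¹ * a⁻¹ by group, h4, h3]
    group
  rw [h2, commutatorElement_def x a]
  exact h1.symm

theorem comm_mul_right {x a b : R} (hb : ⁅x, b⁆ ∈ Z) : ⁅x, a * b⁆ = ⁅x, a⁆ * ⁅x, b⁆ := by
  have h1 := cen_comm hZc hb a
  have h2 : ⁅x, a * b⁆ = ⁅x, a⁆ * (a * ⁅x, b⁆ * a⁻¹) := by
    simp only [commutatorElement_def]; group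
  rw [h2, h1]
  simp

theorem comm_inv_left {y a : R} (hy : ⁅y, a⁆ ∈ Z) : ⁅y⁻¹, a⁆ = ⁅y, a⁆⁻¹ := by
  have h1 : ⁅y⁻¹, a⁆ * ⁅y, a⁆ = 1 := by
    rw [← comm_mul_left hZc hy]
    simp
  exact eq_inv_of_mul_eq_one_left h1

theorem comm_inv_right {x b : R} (hb : ⁅x, b⁆ ∈ Z) : ⁅x, b⁻¹⁆ = ⁅x, b⁆⁻¹ := by
  have h1 : ⁅x, b⁻¹⁆ * ⁅x, b⁆ = 1 := by
    rw [← comm_mul_right hZc hb]
    simp
  exact eq_inv_of_mul_eq_one_left h1

theorem comm_pow_left {y a : R} (hy : ⁅y, a⁆ ∈ Z) (n : ℕ) : ⁅y ^ n, a⁆ = ⁅y, a⁆ ^ n := by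
  induction n with
  | zero => simp
  | succ n ih =>
    rw [pow_succ, comm_mul_left hZc hy, ih, pow_succ]

theorem comm_pow_right {x b : R} (hb : ⁅x, b⁆ ∈ Z) (n : ℕ) : ⁅x, b ^ n⁆ = ⁅x, b⁆ ^ n := by
  induction n with
  | zero => simp
  | succ n ih =>
    rw [pow_succ, comm_mul_right hZc hb, ih, pow_succ]

end commutators

variable {p : ℕ} [hp : Fact p.Prime]

/-- A product of two elements of order dividing `p` with commutator in a central subgroup of
exponent `p` (`p` odd). -/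
theorem mul_pow_eq_one {Z : Subgroup R} (hZc : Z ≤ center R) (hp2 : p ≠ 2) (hZp : ∀ u ∈ Z, u ^ p = 1)
    {x y : R} (hx : x ^ p = 1) (hy : y ^ p = 1) (h : ⁅y⁻¹, x⁻¹⁆ ∈ Z) : (x * y) ^ p = 1 := by
  have hc : y * x = x * y * ⁅y⁻¹, x⁻¹⁆ := by
    simp only [commutatorElement_def]; group
  have := Cfsg.Agent.Lib.OddPGroup.mul_pow_central hc (fun g => cen_comm hZc h g) p
  rw [this, hx, hy, Cfsg.Agent.H28.ChiefRank.choose_pow_eq_one hp2 (hZp _ h)]
  simp

theorem exists_pow_of_card_prime {Z : Subgroup R} (hZ : Nat.card Z = p) {u w : R} (hu : u ∈ Z)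
    (hw : w ∈ Z) (hu1 : u ≠ 1) : ∃ i : ℕ, w = u ^ i := by
  have h1 : (⟨u, hu⟩ : Z) ≠ 1 := fun h => hu1 (congrArg Subtype.val h)
  have h2 := mem_powers_of_prime_card (G := Z) hZ (g := ⟨u, hu⟩) (g' := ⟨w, hw⟩) h1
  obtain ⟨i, hi⟩ := h2
  exact ⟨i, (congrArg Subtype.val hi).symm⟩

section inner

variable [Finite R] {Z : Subgroup R} (hZc : Z ≤ center R) (hZ : Nat.card Z = p)
include hZc hZ

omit [Finite R] in
/-- Decomposition along `a`. -/
theorem decomp {T : Subgroup R} {a r : R} (ha : ∀ y ∈ T, ⁅y, a⁆ ∈ Z) (hr : r ∈ T) (hr1 : ⁅r, a⁆ ≠ 1)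
    {t : R} (ht : t ∈ T) : ∃ (i : ℕ) (t₁ : R), t₁ ∈ T ∧ ⁅t₁, a⁆ = 1 ∧ t = t₁ * r ^ i := by
  obtain ⟨i, hi⟩ := exists_pow_of_card_prime hZ (ha r hr) (ha t ht) hr1
  refine ⟨i, t * (r ^ i)⁻¹, T.mul_mem ht (T.inv_mem (T.pow_mem hr i)), ?_, by group⟩
  have hri : ⁅r ^ i, a⁆ = ⁅r, a⁆ ^ i := comm_pow_left hZc (ha r hr) i
  have hri' : ⁅r ^ i, a⁆ ∈ Z := ha _ (T.pow_mem hr i)
  have hinv : ⁅(r ^ i)⁻¹, a⁆ = ⁅r ^ i, a⁆⁻¹ := comm_inv_left hZc hri'
  have hmem : ⁅(r ^ i)⁻¹, a⁆ ∈ Z := ha _ (T.inv_mem (T.pow_mem hr i))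
  rw [comm_mul_left hZc hmem, hinv, hri, ← hi]
  exact mul_inv_cancel _

/-- Every automorphism of `T` that is trivial on `T / Z` is inner, in the form needed. -/
theorem inner_lemma : ∀ (n : ℕ) (T : Subgroup R), Nat.card T = n → Z ≤ T →
    (∀ x ∈ T, ∀ y ∈ T, ⁅x, y⁆ ∈ Z) → (∀ y ∈ T, (∀ t ∈ T, Commute y t) → y ∈ Z) →
    ∀ a : R, (∀ y ∈ T, ⁅y, a⁆ ∈ Z) → ∃ e ∈ T, ∀ y ∈ T, Commute y (a * e⁻¹) := by
  intro n
  induction n using Nat.strong_induction_on with
  | _ n ih =>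
  intro T hn hZT hcomm hcen a ha
  by_cases hall : ∀ y ∈ T, ⁅y, a⁆ = 1
  · refine ⟨1, T.one_mem, fun y hy => ?_⟩
    simpa using commutatorElement_eq_one_iff_commute.mp (hall y hy)
  push Not at hall
  obtain ⟨r, hrT, hr1⟩ := hall
  have hcommute : ∀ {y : R}, ⁅y, a⁆ = 1 → Commute y a := fun h =>
    commutatorElement_eq_one_iff_commute.mp h
  -- `c` commuting with the kernel and with a single element outside commutes with `T`
  have hext : ∀ {c s : R}, s ∈ T → ⁅s, a⁆ ≠ 1 → (∀ t ∈ T, ⁅t, a⁆ = 1 → Commute t c) → Commute s c →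
      ∀ y ∈ T, Commute y c := by
    intro c s hs hs1 h1 h2 y hy
    obtain ⟨i, t₁, ht₁, ht₁a, rfl⟩ := decomp hZc hZ ha hs hs1 hy
    exact (h1 t₁ ht₁ ht₁a).mul_left (h2.pow_left i)
  by_cases hex : ∃ e₂ ∈ T, ⁅e₂, a⁆ = 1 ∧ (∀ t ∈ T, ⁅t, a⁆ = 1 → Commute e₂ t) ∧ e₂ ∉ Z
  · obtain ⟨e₂, he₂, he₂a, he₂c, he₂Z⟩ := hex
    have hnc : ¬ ∀ t ∈ T, Commute e₂ t := fun h => he₂Z (hcen e₂ he₂ h)
    push Not at hnc
    obtain ⟨r₂, hr₂, hr₂c⟩ := hnc
    have hr₂a : ⁅r₂, a⁆ ≠ 1 := fun h => hr₂c (he₂c r₂ hr₂ h)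
    have hw1 : ⁅r₂, e₂⁆ ≠ 1 := fun h => hr₂c (commutatorElement_eq_one_iff_commute.mp h).symm
    obtain ⟨i, hi⟩ := exists_pow_of_card_prime hZ (hcomm r₂ hr₂ e₂ he₂) (ha r₂ hr₂) hw1
    refine ⟨e₂ ^ i, T.pow_mem he₂ i, ?_⟩
    refine hext hr₂ hr₂a ?_ ?_
    · intro t ht hta
      refine (hcommute hta).mul_right ?_
      exact ((he₂c t ht hta).symm.pow_right i).inv_right
    · have h1 : ⁅r₂, (e₂ ^ i)⁻¹⁆ ∈ Z := hcomm _ hr₂ _ (T.inv_mem (T.pow_mem he₂ i))
      apply commutatorElement_eq_one_iff_commute.mp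
      rw [comm_mul_right hZc h1, comm_inv_right hZc (hcomm _ hr₂ _ (T.pow_mem he₂ i)),
        comm_pow_right hZc (hcomm _ hr₂ _ he₂) i, ← hi]
      exact mul_inv_cancel _
  · push Not at hex
    -- the kernel satisfies the hypotheses
    let T₁ : Subgroup R := T ⊓ centralizer ({a} : Set R)
    have hmemT₁ : ∀ {y : R}, y ∈ T₁ ↔ y ∈ T ∧ ⁅y, a⁆ = 1 := by
      intro y
      constructor
      · rintro ⟨h1, h2⟩
        refine ⟨h1, commutatorElement_eq_one_iff_commute.mpr ?_⟩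
        have := mem_centralizer_iff.mp h2 a rfl
        exact this.symm
      · rintro ⟨h1, h2⟩
        refine ⟨h1, mem_centralizer_iff.mpr ?_⟩
        intro b hb
        rw [Set.mem_singleton_iff] at hb
        subst hb
        exact (commutatorElement_eq_one_iff_commute.mp h2).symm
    have hcard : Nat.card T₁ < n := by
      rw [← hn]
      have hle : T₁ ≤ T := inf_le_left
      refine lt_of_le_of_ne (Subgroup.card_le_of_le hle) ?_
      intro he
      have := Subgroup.eq_of_le_of_card_ge hle he.ge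
      have hr' : r ∈ T₁ := this ▸ hrT
      exact hr1 (hmemT₁.mp hr').2
    obtain ⟨e₁, he₁, hh⟩ := ih _ hcard T₁ rfl
      (fun z hz => hmemT₁.mpr ⟨hZT hz, commutatorElement_eq_one_iff_commute.mpr
        (cen_comm hZc hz a).symm⟩)
      (fun x hx y hy => hcomm x (hmemT₁.mp hx).1 y (hmemT₁.mp hy).1)
      (fun y hy hyc => by
        have hy' := hmemT₁.mp hy
        refine hex y hy'.1 hy'.2 ?_
        intro t ht hta
        exact hyc t (hmemT₁.mpr ⟨ht, hta⟩))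
      r (fun y hy => hcomm y (hmemT₁.mp hy).1 r hrT)
    -- `s = r e₁⁻¹` is central in `T`
    have he₁' := hmemT₁.mp he₁
    have hsT : r * e₁⁻¹ ∈ T := T.mul_mem hrT (T.inv_mem he₁'.1)
    have hsa : ⁅r * e₁⁻¹, a⁆ = ⁅r, a⁆ := by
      have h1 : ⁅e₁⁻¹, a⁆ ∈ Z := ha _ (T.inv_mem he₁'.1)
      rw [comm_mul_left hZc h1, comm_inv_left hZc (ha _ he₁'.1), he₁'.2]
      simp
    have hs1 : ⁅r * e₁⁻¹, a⁆ ≠ 1 := by rw [hsa]; exact hr1
    have hcen' : ∀ y ∈ T, Commute y (r * e₁⁻¹) :=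
      hext hsT hs1 (fun t ht hta => hh t (hmemT₁.mpr ⟨ht, hta⟩)) (Commute.refl _)
    have hsZ := hcen _ hsT (fun t ht => (hcen' t ht).symm)
    exact absurd (commutatorElement_eq_one_iff_commute.mpr (cen_comm hZc hsZ a).symm) hs1

end inner

/-- The subgroup `T`. -/
theorem exists_T {Z : Subgroup R} (hZc : Z ≤ center R) (hp2 : p ≠ 2) (hZp : ∀ u ∈ Z, u ^ p = 1) :
    ∃ T : Subgroup R, ∀ y, y ∈ T ↔ y ^ p = 1 ∧ ∀ g, ⁅y, g⁆ ∈ Z := by
  refine ⟨{ carrier := {y | y ^ p = 1 ∧ ∀ g, ⁅y, g⁆ ∈ Z}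
            mul_mem' := ?_, one_mem' := ?_, inv_mem' := ?_ }, fun y => Iff.rfl⟩
  · rintro x y ⟨hx, hx'⟩ ⟨hy, hy'⟩
    refine ⟨mul_pow_eq_one hZc hp2 hZp hx hy ?_, fun g => ?_⟩
    · have h1 := comm_inv_left hZc (hy' x⁻¹)
      rw [h1]
      exact Z.inv_mem (hy' _)
    · rw [comm_mul_left hZc (hy' g)]
      exact Z.mul_mem (hx' g) (hy' g)
  · simp [Z.one_mem]
  · rintro y ⟨hy, hy'⟩
    refine ⟨by simp [hy], fun g => ?_⟩
    rw [comm_inv_left hZc (hy' g)]
    exact Z.inv_mem (hy' g)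

/-- Lifting the exponent. -/
theorem dvd_aux (hp2 : p ≠ 2) {k r : ℕ} (hr : 1 ≤ r) (h : p ^ k ∣ r ^ p - 1) :
    p ^ k ∣ (r - 1) * p := by
  have hpp : p.Prime := hp.out
  rcases Nat.lt_or_ge 1 r with hr1 | hr1
  swap
  · have : r = 1 := by omega
    subst this; simp
  rcases Nat.eq_zero_or_pos k with rfl | hk
  · simp
  have hpd : p ∣ r ^ p - 1 := (dvd_pow_self p (by omega)).trans h
  have hfer : p ∣ r - 1 := by
    have h1 : ((r : ZMod p)) ^ p = r := ZMod.pow_card _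
    have h2 : ((r ^ p - 1 : ℕ) : ZMod p) = 0 := (ZMod.natCast_eq_zero_iff _ _).mpr hpd
    rw [Nat.cast_sub (Nat.one_le_pow _ _ (by omega)), Nat.cast_pow, h1] at h2
    have : ((r - 1 : ℕ) : ZMod p) = 0 := by rw [Nat.cast_sub hr]; simpa using h2
    exact (ZMod.natCast_eq_zero_iff _ _).mp this
  have hnd : ¬ p ∣ r := by
    intro hd
    have h3 : p ∣ r - (r - 1) := Nat.dvd_sub hd hfer
    have h4 : r - (r - 1) = 1 := by omega
    rw [h4] at h3
    exact hpp.one_lt.ne' (Nat.dvd_one.mp h3)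
  have hodd : Odd p := hpp.odd_of_ne_two hp2
  have hl := padicValNat.pow_sub_pow (p := p) hodd hr1 (by simpa using hfer) hnd hpp.ne_zero
  rw [one_pow, padicValNat_self] at hl
  have hne : r ^ p - 1 ≠ 0 := by
    have : 1 < r ^ p := Nat.one_lt_pow hpp.ne_zero hr1
    omega
  have h5 := (padicValNat_dvd_iff_le hne).mp h
  have hne2 : (r - 1) * p ≠ 0 := Nat.mul_ne_zero (by omega) hpp.ne_zero
  refine (padicValNat_dvd_iff_le hne2).mpr ?_
  rw [padicValNat.mul (by omega) hpp.ne_zero, padicValNat_self]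
  omega

/-- The commutator with a generator of a cyclic normal subgroup. -/
theorem comm_pow_of_cyclic [Finite R] (hR : IsPGroup p R) (hp2 : p ≠ 2) {s τ : R} {r : ℕ}
    (hsτ : s * τ * s⁻¹ = τ ^ r) (hsp : Commute (s ^ p) τ) : ⁅s, τ⁆ ^ p = 1 := by
  have hpp : p.Prime := hp.out
  rcases Nat.eq_zero_or_pos r with rfl | hr
  · have h1 : τ = 1 := by
      have : s * τ * s⁻¹ = 1 := by simpa using hsτ
      have h2 : s * τ = s := by
        calc s * τ = s * τ * s⁻¹ * s := by group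
          _ = s := by rw [this, one_mul]
      simpa using h2
    subst h1
    simp
  have hit : ∀ n : ℕ, s ^ n * τ * (s ^ n)⁻¹ = τ ^ (r ^ n) := by
    intro n
    induction n with
    | zero => simp
    | succ n ih =>
      calc s ^ (n + 1) * τ * (s ^ (n + 1))⁻¹ = s * (s ^ n * τ * (s ^ n)⁻¹) * s⁻¹ := by
            rw [pow_succ']; group
        _ = (s * τ * s⁻¹) ^ (r ^ n) := by rw [ih, conj_pow]
        _ = τ ^ (r ^ (n + 1)) := by rw [hsτ, ← pow_mul, pow_succ']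
  have h1 : τ ^ (r ^ p) = τ := by
    rw [← hit p, hsp.eq]
    group
  obtain ⟨k, hk⟩ := (IsPGroup.iff_orderOf.mp hR) τ
  have hrp : 1 ≤ r ^ p := Nat.one_le_pow _ _ hr
  have h2 : τ ^ (r ^ p - 1) = 1 := by
    have h3 : τ ^ (r ^ p - 1) * τ = τ := by
      rw [← pow_succ, Nat.sub_add_cancel hrp, h1]
    exact mul_eq_right.mp h3
  have h4 : p ^ k ∣ r ^ p - 1 := hk ▸ orderOf_dvd_of_pow_eq_one h2
  have h5 := dvd_aux hp2 hr h4
  have h6 : τ ^ ((r - 1) * p) = 1 := by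
    rw [← hk] at h5
    exact orderOf_dvd_iff_pow_eq_one.mp h5
  have h7 : ⁅s, τ⁆ = τ ^ (r - 1) := by
    rw [commutatorElement_def, hsτ]
    have : τ ^ r = τ ^ (r - 1) * τ := by
      rw [← pow_succ, Nat.sub_add_cancel hr]
    rw [this]
    group
  rw [h7, ← pow_mul, h6]

/-- A subgroup whose elements of order `p` lie in a fixed subgroup of order `p` is cyclic. -/
theorem cyclic_of_omega_le [Finite R] (hR : IsPGroup p R) (hp2 : p ≠ 2) {Z N : Subgroup R}
    (hZ : Nat.card Z = p) (hN : ∀ x ∈ N, x ^ p = 1 → x ∈ Z) : IsCyclic N := by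
  refine Cfsg.Agent.Lib.OddPGroup.isCyclic_of_unique hp2 (hR.to_subgroup N) ?_
  have key : ∀ H : Subgroup N, Nat.card H = p → H.map N.subtype = Z := by
    intro H hH
    have hle : H.map N.subtype ≤ Z := by
      rintro _ ⟨x, hx, rfl⟩
      refine hN _ x.2 ?_
      have h1 : x ^ p = 1 := by
        have := pow_card_eq_one' (G := H) (x := ⟨x, hx⟩)
        rw [hH] at this
        exact congrArg Subtype.val this
      exact congrArg Subtype.val h1
    refine Subgroup.eq_of_le_of_card_ge hle ?_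
    rw [hZ, Subgroup.card_map_of_injective N.subtype_injective, hH]
  intro H K hH hK
  apply Subgroup.map_injective N.subtype_injective
  rw [key H hH, key K hK]

/-- A commutator commuting with its first entry. -/
theorem comm_pow_left_of_commute {y a : R} (h : Commute ⁅y, a⁆ y) (n : ℕ) :
    ⁅y ^ n, a⁆ = ⁅y, a⁆ ^ n := by
  induction n with
  | zero => simp
  | succ n ih =>
    have h4 : ⁅y ^ (n + 1), a⁆ = y * ⁅y ^ n, a⁆ * y⁻¹ * ⁅y, a⁆ := by
      rw [pow_succ']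
      simp only [commutatorElement_def]
      group
    rw [h4, ih, pow_succ]
    have h5 : y * ⁅y, a⁆ ^ n * y⁻¹ = ⁅y, a⁆ ^ n := by
      rw [(h.pow_left n).symm.eq]
      simp
    rw [h5]

/-- **The main lemma**: elements of order `p` lie in `T` when the centre of `T` is `Z`. -/
theorem order_p_mem [Finite R] (hR : IsPGroup p R) (hp2 : p ≠ 2) {Z : Subgroup R}
    (hZc : Z ≤ center R) (hZ : Nat.card Z = p) {T : Subgroup R}
    (hT : ∀ y, y ∈ T ↔ y ^ p = 1 ∧ ∀ g, ⁅y, g⁆ ∈ Z)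
    (hcen : ∀ y ∈ T, (∀ t ∈ T, Commute y t) → y ∈ Z) {a : R} (ha : a ^ p = 1) : a ∈ T := by
  classical
  have hpp : p.Prime := hp.out
  by_contra haT
  have hZp : ∀ u ∈ Z, u ^ p = 1 := by
    intro u hu
    have := pow_card_eq_one' (G := Z) (x := ⟨u, hu⟩)
    rw [hZ] at this
    exact congrArg Subtype.val this
  have hcz : ∀ {z : R}, z ∈ Z → ∀ g, Commute z g := fun hz g => (cen_comm hZc hz g).symm
  have hZn : Z.Normal := by
    constructor
    intro z hz g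
    rw [(hcz hz g).symm.eq, mul_inv_cancel_right]
    exact hz
  have hZT : Z ≤ T := by
    intro z hz
    refine (hT z).mpr ⟨hZp z hz, fun g => ?_⟩
    rw [commutatorElement_eq_one_iff_commute.mpr (hcz hz g)]
    exact Z.one_mem
  have hTn : T.Normal := by
    constructor
    intro y hy g
    have h1 := ((hT y).mp hy).2 g
    have h2 : g * y * g⁻¹ = (⁅y, g⁆)⁻¹ * y := by
      simp only [commutatorElement_def]; group
    rw [h2]
    exact T.mul_mem (T.inv_mem (hZT h1)) hy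
  let C : Subgroup R := centralizer (T : Set R)
  have hCn : C.Normal := Subgroup.normal_centralizer
  obtain ⟨e, heT, he⟩ := inner_lemma hZc hZ _ T rfl hZT (fun x hx y _ => ((hT x).mp hx).2 y) hcen a
    (fun y hy => ((hT y).mp hy).2 a)
  have hcC : a * e⁻¹ ∈ C := by
    refine mem_centralizer_iff.mpr fun y hy => (he y hy).eq
  have hcp : (a * e⁻¹) ^ p = 1 := by
    have h1 : Commute (a * e⁻¹) e := (he e heT).symm
    have h2 : ((a * e⁻¹) * e) ^ p = (a * e⁻¹) ^ p * e ^ p := h1.mul_pow p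
    rw [inv_mul_cancel_right, ha, ((hT e).mp heT).1, mul_one] at h2
    exact h2.symm
  have hcT : a * e⁻¹ ∉ T := by
    intro h
    apply haT
    have := T.mul_mem h heT
    rwa [inv_mul_cancel_right] at this
  let 𝓡 : Subgroup R → Prop := fun S => S.Normal ∧ S ≤ C ∧ ∃ x ∈ S, x ^ p = 1 ∧ x ∉ Z
  have hex : ∃ n, ∃ S, 𝓡 S ∧ Nat.card S = n :=
    ⟨_, C, ⟨hCn, le_rfl, a * e⁻¹, hcC, hcp, fun h => hcT (hZT h)⟩, rfl⟩
  obtain ⟨S, ⟨hSn, hSC, x₀, hx₀S, hx₀p, hx₀Z⟩, hSmin⟩ := Nat.find_spec hex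
  have hmin : ∀ N : Subgroup R, N.Normal → N ≤ S → N ≠ S → ∀ x ∈ N, x ^ p = 1 → x ∈ Z := by
    intro N hNn hNS hne x hx hxp
    by_contra hxZ
    have h1 : 𝓡 N := ⟨hNn, hNS.trans hSC, x, hx, hxp, hxZ⟩
    have h2 := Nat.find_min' hex ⟨N, h1, rfl⟩
    rw [← hSmin] at h2
    exact hne (Subgroup.eq_of_le_of_card_ge hNS h2)
  -- exponent criterion
  have hexp : (∀ x ∈ S, ∀ y ∈ S, x ^ p = 1 → y ^ p = 1 → ⁅y⁻¹, x⁻¹⁆ ∈ Z) → ∀ s ∈ S, s ^ p = 1 := by
    intro h s hs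
    let E : Subgroup R :=
      { carrier := {x | x ∈ S ∧ x ^ p = 1}
        mul_mem' := by
          rintro x y ⟨hx, hxp⟩ ⟨hy, hyp⟩
          exact ⟨S.mul_mem hx hy, mul_pow_eq_one hZc hp2 hZp hxp hyp (h x hx y hy hxp hyp)⟩
        one_mem' := ⟨S.one_mem, one_pow _⟩
        inv_mem' := by
          rintro x ⟨hx, hxp⟩
          exact ⟨S.inv_mem hx, by simp [hxp]⟩ }
    have hEn : E.Normal := by
      constructor
      rintro x ⟨hx, hxp⟩ g
      exact ⟨hSn.conj_mem x hx g, by rw [conj_pow, hxp]; simp⟩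
    have hES : E = S := by
      by_contra hne
      exact hx₀Z (hmin E hEn (fun x hx => hx.1) hne x₀ ⟨hx₀S, hx₀p⟩ hx₀p)
    have : s ∈ E := hES ▸ hs
    exact this.2
  -- the hyperplane `M`
  obtain ⟨k, hk⟩ := IsPGroup.iff_card.mp (hR.to_subgroup S)
  have hk0 : k ≠ 0 := by
    rintro rfl
    have h1 : Nat.card S = 1 := by simpa using hk
    have h2 : S = ⊥ := (Subgroup.card_eq_one).mp h1
    have h3 : x₀ = 1 := by
      have := hx₀S
      rw [h2] at this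
      exact this
    exact hx₀Z (h3 ▸ Z.one_mem)
  obtain ⟨k', rfl⟩ := Nat.exists_eq_succ_of_ne_zero hk0
  obtain ⟨M, hMS, hMk, hMc⟩ := Cfsg.Agent.H28.ChiefRank.exists_hyper hR S hk
  have hMn : M.Normal := by
    constructor
    intro x hx g
    have h1 := hMc x (hMS hx) g
    rw [commutatorElement_def] at h1
    have h2 : g * x * g⁻¹ = (x * g * x⁻¹ * g⁻¹)⁻¹ * x := by group
    rw [h2]
    exact M.mul_mem (M.inv_mem h1) hx
  have hMne : M ≠ S := by
    intro h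
    rw [h, hk, pow_succ] at hMk
    have h1 : p ^ k' * p = p ^ k' * 1 := by rw [hMk, mul_one]
    have h2 := Nat.eq_of_mul_eq_mul_left (pow_pos hpp.pos _) h1
    exact hpp.one_lt.ne' h2
  have hMmin := hmin M hMn hMS hMne
  -- `M` has index `p` in `S`
  have hMpow : ∀ s ∈ S, s ^ p ∈ M := by
    intro s hs
    have hnn : (M.subgroupOf S).Normal := Subgroup.Normal.subgroupOf hMn S
    have h1 : (M.subgroupOf S).index = p := by
      have h2 := Subgroup.card_mul_index (M.subgroupOf S)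
      have h3 : Nat.card (M.subgroupOf S) = Nat.card M :=
        Nat.card_congr (Subgroup.subgroupOfEquivOfLe hMS).toEquiv
      rw [h3, hMk, hk, pow_succ] at h2
      exact Nat.eq_of_mul_eq_mul_left (pow_pos hpp.pos _) h2
    have h4 := Subgroup.pow_index_mem (M.subgroupOf S) (⟨s, hs⟩ : S)
    rw [h1, Subgroup.mem_subgroupOf] at h4
    simpa using h4
  by_cases hcase : ∀ m ∈ M, ∀ s ∈ S, Commute m s
  · -- Case A
    have hSexp := hexp (by
      intro x hx y hy _ hyp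
      have hw := hMc _ (S.inv_mem hy) x⁻¹
      refine hMmin _ hw ?_
      have h1 : Commute ⁅y⁻¹, x⁻¹⁆ y⁻¹ := hcase _ hw _ (S.inv_mem hy)
      rw [← comm_pow_left_of_commute h1 p, inv_pow, hyp]
      simp)
    have hMZ : M ≤ Z := fun m hm => hMmin m hm (hSexp m (hMS hm))
    apply hx₀Z
    refine hcen x₀ ((hT x₀).mpr ⟨hx₀p, fun g => hMZ (hMc _ hx₀S g)⟩) ?_
    intro t ht
    exact (mem_centralizer_iff.mp (hSC hx₀S) t ht).symm
  · -- Case B
    push Not at hcase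
    obtain ⟨m₀, hm₀, s₀, hs₀, hm₀s₀⟩ := hcase
    have hMcyc : IsCyclic M := cyclic_of_omega_le hR hp2 hZ hMmin
    have hMab : ∀ x ∈ M, ∀ y ∈ M, Commute x y := by
      intro x hx y hy
      have h1 := (IsCyclic.isMulCommutative (α := M)).is_comm.comm (⟨x, hx⟩ : M) ⟨y, hy⟩
      exact congrArg Subtype.val h1
    let N₀ : Subgroup R := S ⊓ centralizer (M : Set R)
    have hN₀n : N₀.Normal := by
      have : (centralizer (M : Set R)).Normal := Subgroup.normal_centralizer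
      exact Subgroup.normal_inf_normal S _
    have hMN₀ : M ≤ N₀ := by
      intro m hm
      exact ⟨hMS hm, mem_centralizer_iff.mpr fun y hy => hMab y hy m hm⟩
    have hs₀N₀ : s₀ ∉ N₀ := by
      intro h
      exact hm₀s₀ (mem_centralizer_iff.mp h.2 m₀ hm₀)
    have hN₀ne : N₀ ≠ S := fun h => hs₀N₀ (h ▸ hs₀)
    have hN₀min := hmin N₀ hN₀n inf_le_left hN₀ne
    have hN₀cyc : IsCyclic N₀ := cyclic_of_omega_le hR hp2 hZ hN₀min
    obtain ⟨τ₀, hτ₀⟩ := hN₀cyc.exists_generator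
    let τ : R := τ₀.1
    have hτN₀ : τ ∈ N₀ := τ₀.2
    have hgen : ∀ x ∈ N₀, ∃ r : ℕ, x = τ ^ r := by
      intro x hx
      have h1 : (⟨x, hx⟩ : N₀) ∈ Submonoid.powers τ₀ :=
        (isOfFinOrder_of_finite τ₀).mem_powers_iff_mem_zpowers.mpr (hτ₀ _)
      obtain ⟨r, hr⟩ := h1
      exact ⟨r, (congrArg Subtype.val hr).symm⟩
    have hcomτ : ∀ s ∈ S, ⁅s, τ⁆ ∈ Z := by
      intro s hs
      have hmem : ⁅s, τ⁆ ∈ N₀ := by
        rw [commutatorElement_def]
        exact N₀.mul_mem (hN₀n.conj_mem τ hτN₀ s) (N₀.inv_mem hτN₀)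
      refine hN₀min _ hmem ?_
      obtain ⟨r, hr⟩ := hgen _ (hN₀n.conj_mem τ hτN₀ s)
      refine comm_pow_of_cyclic hR hp2 hr ?_
      exact mem_centralizer_iff.mp hτN₀.2 _ (hMpow s hs)
    have hs₀τ : ¬ Commute s₀ τ := by
      intro h
      obtain ⟨l, hl⟩ := hgen m₀ (hMN₀ hm₀)
      apply hm₀s₀
      rw [hl]
      exact (h.symm.pow_left l)
    have hs₀M : s₀ ∉ M := fun h => hm₀s₀ (hMab m₀ hm₀ s₀ h)
    -- decomposition
    have hdec : ∀ s ∈ S, ∃ m ∈ M, ∃ i : ℕ, s = m * s₀ ^ i := by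
      intro s hs
      let L : Subgroup R := M ⊔ zpowers s₀
      have hML : M ≤ L := le_sup_left
      have hLS : L ≤ S := sup_le hMS ((zpowers_le).mpr hs₀)
      have hLne : L ≠ M := by
        intro h
        apply hs₀M
        rw [← h]
        exact (le_sup_right : zpowers s₀ ≤ L) (mem_zpowers s₀)
      have hLeq : L = S := by
        obtain ⟨j, hj⟩ := IsPGroup.iff_card.mp (hR.to_subgroup L)
        have h1 : Nat.card L ∣ Nat.card S := Subgroup.card_dvd_of_le hLS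
        have h2 : Nat.card M ∣ Nat.card L := Subgroup.card_dvd_of_le hML
        rw [hj, hk] at h1
        rw [hj, hMk] at h2
        have h3 := (Nat.pow_dvd_pow_iff_le_right hpp.one_lt).mp h1
        have h4 := (Nat.pow_dvd_pow_iff_le_right hpp.one_lt).mp h2
        have h5 : j = k' ∨ j = k' + 1 := by omega
        rcases h5 with rfl | rfl
        · exact absurd (Subgroup.eq_of_le_of_card_ge hML (by rw [hj, hMk])).symm hLne
        · exact Subgroup.eq_of_le_of_card_ge hLS (by rw [hj, hk])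
      have hsL : s ∈ L := hLeq ▸ hs
      obtain ⟨m, hm, l, hl, hml⟩ := Cfsg.Agent.H28.ChiefRank.mem_sup_normal hsL
      have h1 : l ∈ Submonoid.powers s₀ :=
        (isOfFinOrder_of_finite s₀).mem_powers_iff_mem_zpowers.mpr hl
      obtain ⟨i, hi⟩ := h1
      exact ⟨m, hm, i, by rw [← hml, ← hi]⟩
    -- `S / Z` abelian
    have hSS : ∀ s ∈ S, ∀ s' ∈ S, ⁅s, s'⁆ ∈ Z := by
      let π := QuotientGroup.mk' Z
      have hπ : Commute (π τ) (π s₀) := by
        have h1 := hcomτ s₀ hs₀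
        have h2 : π ⁅s₀, τ⁆ = 1 := (QuotientGroup.eq_one_iff _).mpr h1
        rw [map_commutatorElement, commutatorElement_eq_one_iff_commute] at h2
        exact h2.symm
      have hπM : ∀ m ∈ M, Commute (π m) (π s₀) := by
        intro m hm
        obtain ⟨l, rfl⟩ := hgen m (hMN₀ hm)
        rw [map_pow]
        exact hπ.pow_left l
      have hπMM : ∀ m ∈ M, ∀ m' ∈ M, Commute (π m) (π m') := by
        intro m hm m' hm'
        have := (hMab m hm m' hm').map π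
        exact this
      intro s hs s' hs'
      obtain ⟨m, hm, i, rfl⟩ := hdec s hs
      obtain ⟨m', hm', i', rfl⟩ := hdec s' hs'
      have : π ⁅m * s₀ ^ i, m' * s₀ ^ i'⁆ = 1 := by
        rw [map_commutatorElement, commutatorElement_eq_one_iff_commute]
        simp only [map_mul, map_pow]
        refine Commute.mul_left ?_ ?_
        · exact Commute.mul_right (hπMM m hm m' hm') ((hπM m hm).pow_right i')
        · exact Commute.mul_right ((hπM m' hm').symm.pow_left i) ((Commute.refl _).pow_pow i i')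
      exact (QuotientGroup.eq_one_iff _).mp this
    have hSexp := hexp (fun x hx y hy _ _ => hSS _ (S.inv_mem hy) _ (S.inv_mem hx))
    have hτZ : τ ∈ Z := hN₀min τ hτN₀ (hSexp τ hτN₀.1)
    exact hs₀τ (hcz hτZ s₀).symm

end Cfsg.Agent.H28.VecB
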