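import Mathlib
import Cfsg.Agent.H28.VecA
import Cfsg.Agent.H28.VecB

/-!
# The vector not fixed by any conjugate

`H₀` acting irreducibly on an abelian `p'`-group `V`, `p` odd, `P₀` a normal `p`-subgroup of `H₀` and
`a₀ ∈ P₀` acting nontrivially: some vector is moved by all the conjugates of `a₀`.
-/

set_option autoImplicit false
set_option linter.style.haveILetI false
set_option linter.unusedSectionVars false

namespace Cfsg.Agent.H28.VecC

open Subgroup Cfsg.Agent.H28.VecA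
open scoped commutatorElement

universe u

variable {V : Type u} [CommGroup V] [Finite V] {p : ℕ} [hp : Fact p.Prime]

theorem exists_pow_of_prime_card {Z : Subgroup (MulAut V)} (hZ : Nat.card Z = p) {z w : MulAut V}
    (hz : z ∈ Z) (hw : w ∈ Z) (hz1 : z ≠ 1) : ∃ i : ℕ, w = z ^ i :=
  Cfsg.Agent.H28.VecB.exists_pow_of_card_prime hZ hz hw hz1

theorem inf_Z {D Z : Subgroup (MulAut V)} (hZ : Nat.card Z = p) (hZfix : fixS Z = ⊥)
    (hD : fixS D ≠ ⊥) {z : MulAut V} (hzZ : z ∈ Z) (hzD : z ∈ D) : z = 1 := by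
  by_contra hz1
  apply hD
  have hle : Z ≤ D := by
    intro w hw
    obtain ⟨i, rfl⟩ := exists_pow_of_prime_card hZ hzZ hw hz1
    exact D.pow_mem hzD i
  exact le_bot_iff.mp (hZfix ▸ fixS_anti hle)

theorem not_le_of_fixS {D Z : Subgroup (MulAut V)} (_hZ : Nat.card Z = p) (hZfix : fixS Z = ⊥)
    (hD : fixS D ≠ ⊥) : ¬ Z ≤ D := by
  intro hle
  exact hD (le_bot_iff.mp (hZfix ▸ fixS_anti hle))

theorem exists_ne_one_of_card {Z : Subgroup (MulAut V)} (hZ : Nat.card Z = p) :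
    ∃ z ∈ Z, z ≠ 1 := by
  have h1 : Z ≠ ⊥ := by
    rintro rfl
    rw [Subgroup.card_bot] at hZ
    exact (Fact.out : p.Prime).one_lt.ne hZ
  obtain ⟨z, hz⟩ := (Subgroup.ne_bot_iff_exists_ne_one (H := Z)).mp h1
  exact ⟨z.1, z.2, fun h => hz (Subtype.ext h)⟩

/-- `x` normalizing a hyperplane not containing `Z` commutes with everything. -/
theorem comm_of_cj_eq {J Z D₀ : Subgroup (MulAut V)} (hD₀ : IsHyp J D₀) (hZJ : Z ≤ J)
    (hZ : Nat.card Z = p) (hZfix : fixS Z = ⊥) (hD₀fix : fixS D₀ ≠ ⊥) {x : MulAut V}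
    (hxc : ∀ y ∈ J, x * y * x⁻¹ * y⁻¹ ∈ Z) (hxZ : ∀ z ∈ Z, Commute x z) (he : cj x D₀ = D₀) :
    ∀ y ∈ J, Commute x y := by
  have h1 : D₀ ⊔ Z = J := hD₀.sup_of_not_le hZJ (not_le_of_fixS hZ hZfix hD₀fix)
  have h2 : D₀ ≤ centralizer ({x} : Set (MulAut V)) := by
    intro d hd
    refine mem_centralizer_iff.mpr ?_
    rintro g rfl
    have h3 : g * d * g⁻¹ * d⁻¹ ∈ D₀ := by
      refine D₀.mul_mem ?_ (D₀.inv_mem hd)
      rw [← he]
      exact conj_mem_cj hd
    have h4 := inf_Z hZ hZfix hD₀fix (hxc d (hD₀.1 hd)) h3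
    have h5 : g * d * g⁻¹ = d := mul_inv_eq_one.mp h4
    exact mul_inv_eq_iff_eq_mul.mp h5
  have h3 : Z ≤ centralizer ({x} : Set (MulAut V)) := by
    intro z hz
    refine mem_centralizer_iff.mpr ?_
    rintro g rfl
    exact (hxZ z hz).eq
  have h4 : J ≤ centralizer ({x} : Set (MulAut V)) := h1 ▸ sup_le h2 h3
  intro y hy
  exact mem_centralizer_iff.mp (h4 hy) x rfl

/-- The non-central case. -/
theorem caseA2 {J Z : Subgroup (MulAut V)} (hJc : ∀ x ∈ J, ∀ y ∈ J, Commute x y)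
    (hJp : ∀ x ∈ J, x ^ p = 1) (hcop : p.Coprime (Nat.card V)) (hZJ : Z ≤ J)
    (hZ : Nat.card Z = p) (hZfix : fixS Z = ⊥) :
    ∃ v : V, ∀ x : MulAut V, (∀ y ∈ J, x * y * x⁻¹ * y⁻¹ ∈ Z) → (∀ z ∈ Z, Commute x z) →
      (∃ y ∈ J, ¬ Commute x y) → x v ≠ v := by
  have hJ : fixS J = ⊥ := le_bot_iff.mp (hZfix ▸ fixS_anti hZJ)
  obtain ⟨z, _, hz1⟩ := exists_ne_one_of_card hZ
  obtain ⟨D₀, hD₀, v₀, hv₀, hzv₀⟩ := exists_hyp_move hJc hJp hcop hJ hz1
  have hD₀fix : fixS D₀ ≠ ⊥ := by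
    intro h
    rw [h, Subgroup.mem_bot] at hv₀
    rw [hv₀, map_one] at hzv₀
    exact hzv₀ rfl
  obtain ⟨v, hv1, hv2⟩ := exists_vec hJc hJp hcop hJ hD₀
  refine ⟨v, fun x hx1 hx2 ⟨y, hy, hxy⟩ hxv => ?_⟩
  have hcj : cj x J = J := cj_eq_self_of_comm hZJ hx1
  have hne : cj x D₀ ≠ D₀ := fun he =>
    hxy (comm_of_cj_eq hD₀ hZJ hZ hZfix hD₀fix hx1 hx2 he y hy)
  exact hv2 _ (hD₀.cj hcj) (fixS_cj_ne_bot hD₀fix) hne (tr_cj_of_fixed hxv hv1)

/-- The extraspecial case. -/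
theorem case3 {T Z : Subgroup (MulAut V)} (hp2 : p ≠ 2) (hcop : p.Coprime (Nat.card V))
    (hZT : Z ≤ T) (hZ : Nat.card Z = p) (hZfix : fixS Z = ⊥) (hTp : ∀ x ∈ T, x ^ p = 1)
    (hTc : ∀ x ∈ T, ∀ y ∈ T, x * y * x⁻¹ * y⁻¹ ∈ Z) (hZc : ∀ z ∈ Z, ∀ t ∈ T, Commute z t)
    (hcen : ∀ y ∈ T, (∀ t ∈ T, Commute y t) → y ∈ Z) :
    ∃ v : V, ∀ x ∈ T, x ≠ 1 → x v ≠ v := by
  classical
  have hpp : p.Prime := hp.out
  obtain ⟨z, hzZ, hz1⟩ := exists_ne_one_of_card hZ
  by_cases hTZ : T ≤ Z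
  · -- `T = Z`
    have hz2 : ∃ v : V, z v ≠ v := by
      by_contra hcon
      push Not at hcon
      exact hz1 (MulEquiv.ext hcon)
    obtain ⟨v, hv⟩ := hz2
    have hv1 : v ≠ 1 := by
      rintro rfl
      rw [map_one] at hv
      exact hv rfl
    refine ⟨v, fun x hx hx1 hxv => hv1 ?_⟩
    have h1 : v ∈ fixS Z := by
      intro w hw
      obtain ⟨i, rfl⟩ := exists_pow_of_prime_card hZ (hTZ hx) hw hx1
      have h2 : ∀ i : ℕ, (x ^ i) v = v := by
        intro i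
        induction i with
        | zero => rfl
        | succ i ih =>
          rw [pow_succ]
          show (x ^ i) (x v) = v
          rw [hxv, ih]
      exact h2 i
    rw [hZfix] at h1
    exact h1
  -- a maximal commutative subgroup
  let 𝓟 : Set (Subgroup (MulAut V)) :=
    {L | Z ≤ L ∧ L ≤ T ∧ ∀ x ∈ L, ∀ y ∈ L, Commute x y}
  have hZ𝓟 : Z ∈ 𝓟 := ⟨le_rfl, hZT, fun x hx y hy => hZc x hx y (hZT hy)⟩
  obtain ⟨L, -, hLmax⟩ := (Set.toFinite 𝓟).exists_le_maximal hZ𝓟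
  obtain ⟨hZL, hLT, hLc⟩ := hLmax.1
  have hmax : ∀ x ∈ T, (∀ y ∈ L, Commute x y) → x ∈ L := by
    intro x hxT hx
    let L₂ : Subgroup (MulAut V) := L ⊔ zpowers x
    have h1 : L₂ ≤ centralizer (L : Set (MulAut V)) ⊓ centralizer ({x} : Set (MulAut V)) := by
      refine sup_le ?_ (zpowers_le.mpr ?_)
      · intro y hy
        refine ⟨mem_centralizer_iff.mpr fun g hg => (hLc g hg y hy).eq, ?_⟩
        refine mem_centralizer_iff.mpr ?_
        rintro g rfl
        exact (hx y hy).eq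
      · refine ⟨mem_centralizer_iff.mpr fun g hg => (hx g hg).symm.eq, ?_⟩
        refine mem_centralizer_iff.mpr ?_
        rintro g rfl
        rfl
    have h2 : L₂ ∈ 𝓟 := by
      refine ⟨hZL.trans le_sup_left, sup_le hLT (zpowers_le.mpr hxT), ?_⟩
      intro u hu w hw
      have h3 : L₂ ≤ centralizer ({u} : Set (MulAut V)) := by
        refine sup_le ?_ (zpowers_le.mpr ?_)
        · intro y hy
          refine mem_centralizer_iff.mpr ?_
          rintro g rfl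
          exact (mem_centralizer_iff.mp (h1 hu).1 y hy).symm
        · refine mem_centralizer_iff.mpr ?_
          rintro g rfl
          exact (mem_centralizer_iff.mp (h1 hu).2 x rfl).symm
      exact mem_centralizer_iff.mp (h3 hw) u rfl
    have h4 : L₂ ≤ L := hLmax.2 h2 le_sup_left
    exact h4 ((le_sup_right : zpowers x ≤ L₂) (mem_zpowers x))
  have hLcomm : ∀ x ∈ L, ∀ y ∈ L, x * y * x⁻¹ * y⁻¹ = 1 := by
    intro x hx y hy
    rw [(hLc x hx y hy).eq]
    group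
  have hLT' : ∃ e ∈ T, e ∉ L := by
    by_contra hcon
    push Not at hcon
    exact hTZ fun y hy => hcen y hy fun t ht => hLc y (hcon y hy) t (hcon t ht)
  have hLfix : fixS L = ⊥ := le_bot_iff.mp (hZfix ▸ fixS_anti hZL)
  have hLp : ∀ x ∈ L, x ^ p = 1 := fun x hx => hTp x (hLT hx)
  obtain ⟨D₀, hD₀, v₀, hv₀, hzv₀⟩ := exists_hyp_move hLc hLp hcop hLfix hz1
  have hD₀fix : fixS D₀ ≠ ⊥ := by
    intro h
    rw [h, Subgroup.mem_bot] at hv₀
    rw [hv₀, map_one] at hzv₀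
    exact hzv₀ rfl
  obtain ⟨v, hv1, hv2⟩ := exists_vec hLc hLp hcop hLfix hD₀
  have hnew : ∀ e ∈ T, e ∉ L → IsHyp L (cj e D₀) ∧ fixS (cj e D₀) ≠ ⊥ ∧ cj e D₀ ≠ D₀ := by
    intro e heT heL
    have h1 : ∀ y ∈ L, e * y * e⁻¹ * y⁻¹ ∈ Z := fun y hy => hTc e heT y (hLT hy)
    have h2 : ∀ w ∈ Z, Commute e w := fun w hw => (hZc w hw e heT).symm
    refine ⟨hD₀.cj (cj_eq_self_of_comm hZL h1), fixS_cj_ne_bot hD₀fix, fun he => heL ?_⟩
    exact hmax e heT (comm_of_cj_eq hD₀ hZL hZ hZfix hD₀fix h1 h2 he)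
  refine ⟨v, fun x hxT hx1 hxv => ?_⟩
  by_cases hxL : x ∈ L
  · -- find a good hyperplane
    have hD' : ∃ D', IsHyp L D' ∧ fixS D' ≠ ⊥ ∧ D' ≠ D₀ ∧ x ∉ D' := by
      by_cases hxZ : x ∈ Z
      · obtain ⟨e, heT, heL⟩ := hLT'
        obtain ⟨h1, h2, h3⟩ := hnew e heT heL
        exact ⟨_, h1, h2, h3, fun h => hx1 (inf_Z hZ hZfix h2 hxZ h)⟩
      · have h1 : ∃ e ∈ T, ¬ Commute x e := by
          by_contra hcon
          push Not at hcon
          exact hxZ (hcen x hxT hcon)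
        obtain ⟨e, heT, hxe⟩ := h1
        have heL : e ∉ L := fun h => hxe (hLc x hxL e h)
        have he2T : e ^ 2 ∈ T := T.pow_mem heT 2
        have he2L : e ^ 2 ∉ L := by
          intro h
          apply heL
          have hodd : Odd p := hpp.odd_of_ne_two hp2
          obtain ⟨k, hk⟩ := hodd
          have h5 : (e ^ 2) ^ (k + 1) = e := by
            rw [← pow_mul]
            have : 2 * (k + 1) = p + 1 := by omega
            rw [this, pow_succ, hTp e heT, one_mul]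
          rw [← h5]
          exact L.pow_mem h _
        obtain ⟨h11, h12, h13⟩ := hnew e heT heL
        obtain ⟨h21, h22, h23⟩ := hnew _ he2T he2L
        by_cases hx1' : x ∈ cj e D₀
        · by_cases hx2' : x ∈ cj (e ^ 2) D₀
          · exfalso
            have h3 : e⁻¹ * x * e ∈ D₀ := mem_cj.mp hx1'
            have h4 : (e ^ 2)⁻¹ * x * e ^ 2 ∈ D₀ := mem_cj.mp hx2'
            have h5 := D₀.mul_mem (D₀.inv_mem h3) h4
            let c : MulAut V := x⁻¹ * e⁻¹ * x⁻¹⁻¹ * e⁻¹⁻¹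
            have hc : c ∈ Z := hTc x⁻¹ (T.inv_mem hxT) e⁻¹ (T.inv_mem heT)
            have hce : Commute c e := hZc c hc e heT
            have h6 : (e⁻¹ * x * e)⁻¹ * ((e ^ 2)⁻¹ * x * e ^ 2) = c := by
              have h7 : (e⁻¹ * x * e)⁻¹ * ((e ^ 2)⁻¹ * x * e ^ 2) = e⁻¹ * c * e := by
                simp only [c, pow_two]
                group
              rw [h7, mul_assoc, hce.eq, inv_mul_cancel_left]
            rw [h6] at h5
            have h8 : c = 1 := inf_Z hZ hZfix hD₀fix hc h5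
            apply hxe
            have h9 : x⁻¹ * e⁻¹ * x * e = 1 := by simpa [c] using h8
            have h10 : x⁻¹ * (e⁻¹ * (x * e)) = 1 := by simpa [mul_assoc] using h9
            have h11' : e⁻¹ * (x * e) = x := by
              have := congrArg (fun g => x * g) h10
              simpa using this
            have h12' : x * e = e * x := by
              have := congrArg (fun g => e * g) h11'
              simpa using this
            exact h12'
          · exact ⟨_, h21, h22, h23, hx2'⟩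
        · exact ⟨_, h11, h12, h13, hx1'⟩
    obtain ⟨D', h1, h2, h3, h4⟩ := hD'
    have h5 := hv2 D' h1 h2 h3
    apply h5
    have h6 : tr D' v ∈ fixS D' := tr_mem_fixS D' v
    have h7 : x (tr D' v) = tr D' v := by
      have := tr_comm (x := x) (D := D') (fun d hd => hLc x hxL d (h1.1 hd)) v
      rw [hxv] at this
      exact this.symm
    have h8 := mem_fixS_sup_zpowers h6 h7
    rw [h1.sup_zpowers hxL h4, hLfix] at h8
    exact h8
  · obtain ⟨h1, h2, h3⟩ := hnew x hxT hxL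
    exact hv2 _ h1 h2 h3 (tr_cj_of_fixed hxv hv1)

end Cfsg.Agent.H28.VecC
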