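import Mathlib
import Cfsg.Agent.H28.VecC

/-!
# The vector not fixed by any conjugate: the induction
-/

set_option autoImplicit false
set_option linter.style.haveILetI false
set_option linter.unusedSectionVars false

namespace Cfsg.Agent.H28.VecD

open Subgroup Cfsg.Agent.H28.VecA Cfsg.Agent.H28.VecC
open scoped commutatorElement

universe u

/-- Restriction of an action to an invariant subgroup. -/
def resHom {V : Type u} [CommGroup V] {H₀ : Type u} [Group H₀] (ρ : H₀ →* MulAut V)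
    (W : Subgroup V) (H₁ : Subgroup H₀) (hH₁ : ∀ h ∈ H₁, ∀ w ∈ W, ρ h w ∈ W) : H₁ →* MulAut W where
  toFun h :=
    { toFun := fun w => ⟨ρ h.1 w.1, hH₁ h.1 h.2 w.1 w.2⟩
      invFun := fun w => ⟨ρ h.1⁻¹ w.1, hH₁ _ (H₁.inv_mem h.2) w.1 w.2⟩
      left_inv := by
        intro w
        apply Subtype.ext
        show ρ h.1⁻¹ (ρ h.1 w.1) = w.1
        rw [map_inv, MulAut.inv_apply_self]
      right_inv := by
        intro w
        apply Subtype.ext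
        show ρ h.1 (ρ h.1⁻¹ w.1) = w.1
        rw [map_inv, MulAut.apply_inv_self]
      map_mul' := by
        intro a b
        apply Subtype.ext
        exact map_mul _ _ _ }
  map_one' := by
    ext w
    show ρ (1 : H₀) w.1 = w.1
    rw [map_one]
    rfl
  map_mul' := by
    intro a b
    ext w
    show ρ (a.1 * b.1) w.1 = ρ a.1 (ρ b.1 w.1)
    rw [map_mul]
    rfl

theorem resHom_coe {V : Type u} [CommGroup V] {H₀ : Type u} [Group H₀] (ρ : H₀ →* MulAut V)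
    (W : Subgroup V) (H₁ : Subgroup H₀) (hH₁ : ∀ h ∈ H₁, ∀ w ∈ W, ρ h w ∈ W) (h : H₁) (w : W) :
    ((resHom ρ W H₁ hH₁ h w : W) : V) = ρ h.1 w.1 := rfl

/-- The induction hypothesis. -/
def CoreIH (p n : ℕ) : Prop :=
  ∀ (V₁ : Type u) [CommGroup V₁] [Finite V₁], Nat.card V₁ < n → ∀ (H₁ : Type u) [Group H₁] [Finite H₁]
    (ρ₁ : H₁ →* MulAut V₁) (P₁ : Subgroup H₁), P₁.Normal → IsPGroup p P₁ →
    p.Coprime (Nat.card V₁) → (∀ W : Subgroup V₁, (∀ h, ∀ w ∈ W, ρ₁ h w ∈ W) → W = ⊥ ∨ W = ⊤) →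
    ∀ a₁ ∈ P₁, ρ₁ a₁ ≠ 1 → ∃ v : V₁, ∀ h, ρ₁ (h * a₁ * h⁻¹) v ≠ v

variable {V : Type u} [CommGroup V] [Finite V] {p : ℕ} [hp : Fact p.Prime]
  {H₀ : Type u} [Group H₀] [Finite H₀]

theorem cj_eq_of_comm {G : Type*} [Group G] {x : G} {D : Subgroup G} (h : ∀ d ∈ D, Commute x d) :
    cj x D = D := by
  ext y
  rw [mem_cj]
  constructor
  · intro hy
    have h1 := (h _ hy).eq
    have : y = x⁻¹ * y * x := by
      have h2 : x * (x⁻¹ * y * x) = y * x := by group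
      rw [h1] at h2
      exact (mul_right_cancel h2).symm
    rwa [this]
  · intro hy
    have h1 := (h _ hy).eq
    have : x⁻¹ * y * x = y := by
      rw [mul_assoc, ← h1]
      group
    rwa [this]

/-- The inductive case: `a₀` centralizes `J`. -/
theorem caseA1 (ρ : H₀ →* MulAut V) (P₀ : Subgroup H₀) (hP₀n : P₀.Normal) (hP₀ : IsPGroup p P₀)
    (hcop : p.Coprime (Nat.card V))
    (hirr : ∀ W : Subgroup V, (∀ h, ∀ w ∈ W, ρ h w ∈ W) → W = ⊥ ∨ W = ⊤) {a₀ : H₀} (ha₀ : a₀ ∈ P₀)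
    (ha : ρ a₀ ≠ 1) (IH : CoreIH.{u} p (Nat.card V)) {J : Subgroup (MulAut V)}
    (hJc : ∀ x ∈ J, ∀ y ∈ J, Commute x y) (hJp : ∀ x ∈ J, x ^ p = 1) (hJfix : fixS J = ⊥)
    (hJinv : ∀ h, ∀ x ∈ J, ρ h * x * (ρ h)⁻¹ ∈ J) (hJcard : Nat.card J ≠ p) (hJbot : J ≠ ⊥)
    (haJ : ∀ y ∈ J, Commute (ρ a₀) y) : ∃ v : V, ∀ h, ρ (h * a₀ * h⁻¹) v ≠ v := by
  classical
  have hpp : p.Prime := hp.out
  obtain ⟨D, hD, v₀, hv₀, hav₀⟩ := exists_hyp_move hJc hJp hcop hJfix ha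
  have hcjJ : ∀ h, cj (ρ h) J = J := by
    intro h
    refine Subgroup.eq_of_le_of_card_ge ?_ (by rw [card_cj])
    rintro _ ⟨y, hy, rfl⟩
    exact hJinv h y hy
  have hDhyp : ∀ h, IsHyp J (cj (ρ h) D) := fun h => hD.cj (hcjJ h)
  -- `D ≠ 1`
  have hDbot : D ≠ ⊥ := by
    rintro rfl
    obtain ⟨x, hx⟩ := (Subgroup.ne_bot_iff_exists_ne_one (H := J)).mp hJbot
    have hx1 : x.1 ≠ 1 := fun h => hx (Subtype.ext h)
    have hle : zpowers x.1 ≤ J := zpowers_le.mpr x.2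
    rcases hD.2.2 _ bot_le hle with h1 | h1
    · exact hx1 (zpowers_eq_bot.mp h1)
    · apply hJcard
      rw [← h1, Nat.card_zpowers]
      exact orderOf_eq_prime (hJp _ x.2) hx1
  have hV₁ne : fixS D ≠ ⊤ := by
    intro h
    obtain ⟨d, hd⟩ := (Subgroup.ne_bot_iff_exists_ne_one (H := D)).mp hDbot
    apply hd
    apply Subtype.ext
    ext u
    have : u ∈ fixS D := h ▸ mem_top u
    exact this d.1 d.2
  have hcard : Nat.card (fixS D) < Nat.card V :=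
    Cfsg.Agent.H28.ChiefRank.card_lt_of_ne_top _ hV₁ne
  have hm : (Nat.card D).Coprime (Nat.card V) := card_coprime_of_le hJp hD.1 hcop
  -- the stabilizer
  let H₁ : Subgroup H₀ :=
    { carrier := {h | cj (ρ h) D = D}
      mul_mem' := by
        intro a b ha hb
        show cj (ρ (a * b)) D = D
        rw [map_mul, cj_mul, show cj (ρ b) D = D from hb, show cj (ρ a) D = D from ha]
      one_mem' := by
        show cj (ρ 1) D = D
        rw [map_one, cj_one]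
      inv_mem' := by
        intro a ha
        show cj (ρ a⁻¹) D = D
        rw [map_inv]
        conv_lhs => rw [← show cj (ρ a) D = D from ha]
        exact cj_inv_cj _ _ }
  have hH₁ : ∀ h ∈ H₁, ∀ w ∈ fixS D, ρ h w ∈ fixS D := by
    intro h hh w hw
    have := smul_mem_fixS_cj (ρ h) hw
    rwa [show cj (ρ h) D = D from hh] at this
  let ρ₁ := resHom ρ (fixS D) H₁ hH₁
  let P₁ : Subgroup H₁ := P₀.subgroupOf H₁
  have hP₁n : P₁.Normal := Subgroup.Normal.subgroupOf hP₀n H₁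
  have hP₁ : IsPGroup p P₁ := IsPGroup.comap_subtype hP₀
  have hcop₁ : p.Coprime (Nat.card (fixS D)) :=
    Nat.Coprime.coprime_dvd_right (Subgroup.card_subgroup_dvd_card _) hcop
  have ha₀H₁ : a₀ ∈ H₁ := by
    show cj (ρ a₀) D = D
    exact cj_eq_of_comm fun d hd => haJ d (hD.1 hd)
  -- irreducibility
  have hirr₁ : ∀ W₁ : Subgroup (fixS D), (∀ h, ∀ w ∈ W₁, ρ₁ h w ∈ W₁) → W₁ = ⊥ ∨ W₁ = ⊤ := by
    intro W₁ hW₁
    by_cases hW₁bot : W₁ = ⊥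
    · exact Or.inl hW₁bot
    right
    let W : Subgroup V := W₁.map (fixS D).subtype
    let W' : Subgroup V := ⨆ h : H₀, W.map (ρ h).toMonoidHom
    have hWW' : W ≤ W' := by
      refine le_trans ?_ (le_iSup _ (1 : H₀))
      intro w hw
      exact ⟨w, hw, by simp⟩
    have hW'inv : ∀ g, ∀ w ∈ W', ρ g w ∈ W' := by
      intro g w hw
      have h1 : W' ≤ W'.comap (ρ g).toMonoidHom := by
        refine iSup_le fun h => ?_
        rintro _ ⟨w, hw, rfl⟩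
        show ρ g (ρ h w) ∈ W'
        have h2 : ρ g (ρ h w) = ρ (g * h) w := by rw [map_mul]; rfl
        rw [h2]
        exact (le_iSup (fun h : H₀ => W.map (ρ h).toMonoidHom) (g * h)) ⟨w, hw, rfl⟩
      exact h1 hw
    have hW'top : W' = ⊤ := by
      rcases hirr W' hW'inv with h1 | h1
      · exfalso
        apply hW₁bot
        have h2 : W = ⊥ := le_bot_iff.mp (h1 ▸ hWW')
        exact (Subgroup.map_eq_bot_iff_of_injective _ (fixS D).subtype_injective).mp h2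
      · exact h1
    have htr : ∀ u ∈ W', tr D u ∈ W := by
      intro u hu
      have h1 : W' ≤ W.comap (tr D) := by
        refine iSup_le fun h => ?_
        rintro _ ⟨w, hw, rfl⟩
        obtain ⟨w₁, hw₁, rfl⟩ := hw
        show tr D (ρ h (w₁ : V)) ∈ W
        by_cases hh : cj (ρ h) D = D
        · have h2 : ρ h (w₁ : V) ∈ fixS D := hH₁ h hh _ w₁.2
          rw [tr_fixed h2]
          refine W.pow_mem ?_ _
          exact ⟨ρ₁ ⟨h, hh⟩ w₁, hW₁ _ _ hw₁, rfl⟩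
        · have h3 := tr_other hJc hJfix hD (hDhyp h) (Ne.symm hh) (smul_mem_fixS_cj (ρ h) w₁.2)
          rw [h3]
          exact W.one_mem
      exact h1 hu
    refine (Subgroup.eq_top_iff' _).mpr fun w => ?_
    have h1 : (w : V) ∈ W := by
      have h2 := htr w.1 (hW'top ▸ mem_top _)
      rw [tr_fixed w.2] at h2
      exact root_mem W hm h2
    obtain ⟨w', hw', he⟩ := h1
    have : w' = w := Subtype.ext he
    exact this ▸ hw'
  have ha₁ : ρ₁ ⟨a₀, ha₀H₁⟩ ≠ 1 := by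
    intro h
    apply hav₀
    have := congrArg (fun g => ((g ⟨v₀, hv₀⟩ : fixS D) : V)) h
    exact this
  obtain ⟨v₁, hv₁⟩ := IH (fixS D) hcard H₁ ρ₁ P₁ hP₁n hP₁ hcop₁ hirr₁ ⟨a₀, ha₀H₁⟩ ha₀ ha₁
  -- the orbit
  haveI : Fintype (Subgroup (MulAut V)) := Fintype.ofFinite _
  let Λ : Finset (Subgroup (MulAut V)) := Finset.univ.filter fun D' => ∃ h, cj (ρ h) D = D'
  let t : Subgroup (MulAut V) → H₀ := fun D' => if h : ∃ h, cj (ρ h) D = D' then h.choose else 1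
  have ht : ∀ D' ∈ Λ, cj (ρ (t D')) D = D' := by
    intro D' hD'
    have h1 : ∃ h, cj (ρ h) D = D' := (Finset.mem_filter.mp hD').2
    simp only [t, dif_pos h1]
    exact h1.choose_spec
  let f : Subgroup (MulAut V) → V := fun D' => ρ (t D') v₁.1
  have hΛ : ∀ D' ∈ Λ, IsHyp J D' := by
    intro D' hD'
    rw [← ht D' hD']
    exact hDhyp _
  have hf : ∀ D' ∈ Λ, f D' ∈ fixS D' := by
    intro D' hD'
    have := smul_mem_fixS_cj (ρ (t D')) v₁.2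
    rwa [ht D' hD'] at this
  refine ⟨∏ D' ∈ Λ, f D', fun h hv => ?_⟩
  have hρ : ρ (h * a₀ * h⁻¹) = ρ h * ρ a₀ * (ρ h)⁻¹ := by simp [map_mul, map_inv]
  set x := ρ (h * a₀ * h⁻¹) with hx
  have hxJ : ∀ y ∈ J, Commute x y := by
    intro y hy
    have h1 := hJinv h⁻¹ y hy
    rw [map_inv, inv_inv] at h1
    have h2 := (haJ _ h1).eq
    show x * y = y * x
    rw [hρ]
    calc ρ h * ρ a₀ * (ρ h)⁻¹ * y = ρ h * (ρ a₀ * ((ρ h)⁻¹ * y * ρ h)) * (ρ h)⁻¹ := by group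
      _ = ρ h * (((ρ h)⁻¹ * y * ρ h) * ρ a₀) * (ρ h)⁻¹ := by rw [h2]
      _ = y * (ρ h * ρ a₀ * (ρ h)⁻¹) := by group
  let D' : Subgroup (MulAut V) := cj (ρ h) D
  have hD'Λ : D' ∈ Λ := Finset.mem_filter.mpr ⟨Finset.mem_univ _, h, rfl⟩
  have hD'J : IsHyp J D' := hDhyp h
  have h1 := tr_prod hJc hJfix hD'J Λ hΛ f hf hD'Λ
  have h2 := tr_comm (x := x) (D := D') (fun d hd => hxJ d (hD'J.1 hd)) (∏ D' ∈ Λ, f D')
  rw [hv, h1] at h2
  have h3 : x (f D') = f D' := fixed_of_pow x (card_coprime_of_le hJp hD'J.1 hcop) h2.symm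
  let t' := t D'
  have ht' : cj (ρ t') D = D' := ht D' hD'Λ
  have hh₁ : t'⁻¹ * h ∈ H₁ := by
    show cj (ρ (t'⁻¹ * h)) D = D
    rw [map_mul, map_inv, cj_mul]
    show cj (ρ t')⁻¹ D' = D
    rw [← ht', cj_inv_cj]
  apply hv₁ ⟨t'⁻¹ * h, hh₁⟩
  apply Subtype.ext
  show ρ ((t'⁻¹ * h) * a₀ * (t'⁻¹ * h)⁻¹) v₁.1 = v₁.1
  have h4 : ρ ((t'⁻¹ * h) * a₀ * (t'⁻¹ * h)⁻¹) = (ρ t')⁻¹ * x * ρ t' := by
    rw [hρ]
    simp only [map_mul, map_inv, mul_inv_rev, inv_inv]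
    group
  rw [h4]
  show (ρ t')⁻¹ (x (ρ t' v₁.1)) = v₁.1
  have h5 : x (ρ t' v₁.1) = ρ t' v₁.1 := h3
  rw [h5, MulAut.inv_apply_self]

theorem comm_conj {G : Type*} [Group G] {x g u : G} (h : Commute x (u⁻¹ * g * u)) :
    Commute (u * x * u⁻¹) g := by
  have h1 := h.eq
  show u * x * u⁻¹ * g = g * (u * x * u⁻¹)
  calc u * x * u⁻¹ * g = u * (x * (u⁻¹ * g * u)) * u⁻¹ := by group
    _ = u * ((u⁻¹ * g * u) * x) * u⁻¹ := by rw [h1]
    _ = g * (u * x * u⁻¹) := by group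

/-- The inductive step, for `a₀` acting with order `p`. -/
theorem core_step (hp2 : p ≠ 2) (ρ : H₀ →* MulAut V) (P₀ : Subgroup H₀) (hP₀n : P₀.Normal)
    (hP₀ : IsPGroup p P₀) (hcop : p.Coprime (Nat.card V))
    (hirr : ∀ W : Subgroup V, (∀ h, ∀ w ∈ W, ρ h w ∈ W) → W = ⊥ ∨ W = ⊤) {a₀ : H₀} (ha₀ : a₀ ∈ P₀)
    (ha : ρ a₀ ≠ 1) (hap : ρ a₀ ^ p = 1) (IH : CoreIH.{u} p (Nat.card V)) :
    ∃ v : V, ∀ h, ρ (h * a₀ * h⁻¹) v ≠ v := by
  classical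
  have hpp : p.Prime := hp.out
  let P : Subgroup (MulAut V) := P₀.map ρ
  have hPp : IsPGroup p P := hP₀.map ρ
  have hPinv : ∀ h, ∀ x ∈ P, ρ h * x * (ρ h)⁻¹ ∈ P := by
    rintro h _ ⟨y, hy, rfl⟩
    exact ⟨h * y * h⁻¹, hP₀n.conj_mem y hy h, by simp [map_mul, map_inv]⟩
  have hPinv' : ∀ h, ∀ x ∈ P, (ρ h)⁻¹ * x * ρ h ∈ P := by
    intro h x hx
    have := hPinv h⁻¹ x hx
    rwa [map_inv, inv_inv] at this
  have haP : ρ a₀ ∈ P := ⟨a₀, ha₀, rfl⟩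
  have hconj : ∀ h, ρ (h * a₀ * h⁻¹) = ρ h * ρ a₀ * (ρ h)⁻¹ := fun h => by
    simp [map_mul, map_inv]
  -- fixed points of invariant subgroups
  have hfixprin : ∀ J : Subgroup (MulAut V), J ≠ ⊥ → (∀ h, ∀ x ∈ J, ρ h * x * (ρ h)⁻¹ ∈ J) →
      fixS J = ⊥ := by
    intro J hJ hinv
    have h1 : ∀ h, ∀ w ∈ fixS J, ρ h w ∈ fixS J := by
      intro h w hw d hd
      have h2 := hinv h⁻¹ d hd
      rw [map_inv, inv_inv] at h2
      have h3 := hw _ h2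
      have h4 : (ρ h)⁻¹ (d (ρ h w)) = w := h3
      have h5 := congrArg (ρ h) h4
      rwa [MulAut.apply_inv_self] at h5
    rcases hirr _ h1 with h2 | h2
    · exact h2
    · exfalso
      obtain ⟨d, hd⟩ := (Subgroup.ne_bot_iff_exists_ne_one (H := J)).mp hJ
      apply hd
      apply Subtype.ext
      ext u
      have : u ∈ fixS J := h2 ▸ mem_top u
      exact this d.1 d.2
  -- the central layer
  let E₁ : Subgroup (MulAut V) :=
    { carrier := {x | x ∈ P ∧ x ^ p = 1 ∧ ∀ g ∈ P, Commute x g}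
      mul_mem' := by
        rintro x y ⟨hx1, hx2, hx3⟩ ⟨hy1, hy2, hy3⟩
        refine ⟨P.mul_mem hx1 hy1, ?_, fun g hg => (hx3 g hg).mul_left (hy3 g hg)⟩
        rw [(hx3 y hy1).mul_pow, hx2, hy2, one_mul]
      one_mem' := ⟨P.one_mem, one_pow _, fun g _ => Commute.one_left g⟩
      inv_mem' := by
        rintro x ⟨hx1, hx2, hx3⟩
        exact ⟨P.inv_mem hx1, by rw [inv_pow, hx2, inv_one], fun g hg => (hx3 g hg).inv_left⟩ }
  have hE₁inv : ∀ h, ∀ x ∈ E₁, ρ h * x * (ρ h)⁻¹ ∈ E₁ := by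
    rintro h x ⟨hx1, hx2, hx3⟩
    refine ⟨hPinv h x hx1, by rw [conj_pow, hx2]; simp, fun g hg => ?_⟩
    exact comm_conj (hx3 _ (hPinv' h g hg))
  have hE₁ne : E₁ ≠ ⊥ := by
    haveI : Nontrivial P := ⟨⟨⟨ρ a₀, haP⟩, 1, fun h => ha (congrArg Subtype.val h)⟩⟩
    haveI := hPp.center_nontrivial
    have h1 : center P ≠ ⊥ := by
      obtain ⟨x, hx⟩ := exists_ne (1 : center P)
      intro h2
      apply hx
      have : x.1 ∈ (⊥ : Subgroup P) := h2 ▸ x.2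
      exact Subtype.ext this
    obtain ⟨x, hxc, hx1, hxp⟩ :=
      Cfsg.Agent.H28.ChiefRank.exists_order_p_of_ne_bot (hPp.to_subgroup (center P)) h1
    refine (Subgroup.ne_bot_iff_exists_ne_one (H := E₁)).mpr ⟨⟨x.1, x.2, ?_, ?_⟩, ?_⟩
    · exact congrArg Subtype.val hxp
    · intro g hg
      exact congrArg Subtype.val (mem_center_iff.mp hxc ⟨g, hg⟩).symm
    · intro h
      have h2 : x.1 = 1 := congrArg (fun u : E₁ => u.1) h
      exact hx1 (Subtype.ext h2)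
  have hE₁c : ∀ x ∈ E₁, ∀ y ∈ E₁, Commute x y := fun x hx y hy => hx.2.2 y hy.1
  have hE₁p : ∀ x ∈ E₁, x ^ p = 1 := fun x hx => hx.2.1
  by_cases hE₁card : Nat.card E₁ = p
  swap
  · exact caseA1 ρ P₀ hP₀n hP₀ hcop hirr ha₀ ha IH hE₁c hE₁p (hfixprin E₁ hE₁ne hE₁inv) hE₁inv
      hE₁card hE₁ne (fun y hy => (hy.2.2 _ haP).symm)
  -- `E₁` has order `p`
  have hE₁fix : fixS E₁ = ⊥ := hfixprin E₁ hE₁ne hE₁inv
  let ZR : Subgroup P := E₁.subgroupOf P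
  have hE₁P : E₁ ≤ P := fun x hx => hx.1
  have hZRc : ZR ≤ center P := by
    intro z hz
    refine mem_center_iff.mpr fun g => ?_
    exact Subtype.ext ((Subgroup.mem_subgroupOf.mp hz).2.2 g.1 g.2).symm.eq
  have hZRcard : Nat.card ZR = p := by
    rw [← hE₁card]
    exact Nat.card_congr (Subgroup.subgroupOfEquivOfLe hE₁P).toEquiv
  have hZRp : ∀ u ∈ ZR, u ^ p = 1 := by
    intro u hu
    exact Subtype.ext ((Subgroup.mem_subgroupOf.mp hu).2.1)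
  obtain ⟨TR, hTR⟩ := Cfsg.Agent.H28.VecB.exists_T hZRc hp2 hZRp
  let T : Subgroup (MulAut V) := TR.map P.subtype
  have hTmem : ∀ y, y ∈ T ↔ y ∈ P ∧ y ^ p = 1 ∧ ∀ g ∈ P, y * g * y⁻¹ * g⁻¹ ∈ E₁ := by
    intro y
    constructor
    · rintro ⟨r, hr, rfl⟩
      obtain ⟨h1, h2⟩ := (hTR r).mp hr
      refine ⟨r.2, congrArg Subtype.val h1, fun g hg => ?_⟩
      exact Subgroup.mem_subgroupOf.mp (h2 ⟨g, hg⟩)
    · rintro ⟨h1, h2, h3⟩
      refine ⟨⟨y, h1⟩, (hTR _).mpr ⟨Subtype.ext h2, fun g => ?_⟩, rfl⟩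
      exact Subgroup.mem_subgroupOf.mpr (h3 g.1 g.2)
  have hTP : T ≤ P := fun y hy => ((hTmem y).mp hy).1
  have hTp : ∀ x ∈ T, x ^ p = 1 := fun x hx => ((hTmem x).mp hx).2.1
  have hTc : ∀ x ∈ T, ∀ y ∈ T, x * y * x⁻¹ * y⁻¹ ∈ E₁ := fun x hx y hy =>
    ((hTmem x).mp hx).2.2 y (hTP hy)
  have hZcT : ∀ z ∈ E₁, ∀ t ∈ T, Commute z t := fun z hz t ht => hz.2.2 t (hTP ht)
  have hE₁T : E₁ ≤ T := by
    intro z hz
    refine (hTmem z).mpr ⟨hz.1, hz.2.1, fun g hg => ?_⟩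
    have := (hz.2.2 g hg).eq
    rw [this]
    simp
  have hTinv : ∀ h, ∀ x ∈ T, ρ h * x * (ρ h)⁻¹ ∈ T := by
    intro h x hx
    obtain ⟨h1, h2, h3⟩ := (hTmem x).mp hx
    refine (hTmem _).mpr ⟨hPinv h x h1, by rw [conj_pow, h2]; simp, fun g hg => ?_⟩
    have h4 := hE₁inv h _ (h3 _ (hPinv' h g hg))
    convert h4 using 1
    group
  let J' : Subgroup (MulAut V) := T ⊓ centralizer (T : Set (MulAut V))
  have hJ'c : ∀ x ∈ J', ∀ y ∈ J', Commute x y := fun x hx y hy =>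
    (mem_centralizer_iff.mp hy.2 x hx.1)
  have hJ'p : ∀ x ∈ J', x ^ p = 1 := fun x hx => hTp x hx.1
  have hE₁J' : E₁ ≤ J' := fun z hz =>
    ⟨hE₁T hz, mem_centralizer_iff.mpr fun g hg => (hZcT z hz g hg).symm.eq⟩
  have hJ'ne : J' ≠ ⊥ := fun h => hE₁ne (le_bot_iff.mp (h ▸ hE₁J'))
  have hJ'inv : ∀ h, ∀ x ∈ J', ρ h * x * (ρ h)⁻¹ ∈ J' := by
    intro h x hx
    refine ⟨hTinv h x hx.1, mem_centralizer_iff.mpr fun g hg => ?_⟩
    have h1 := hTinv h⁻¹ g hg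
    rw [map_inv, inv_inv] at h1
    have h2 : Commute x ((ρ h)⁻¹ * g * ρ h) := (mem_centralizer_iff.mp hx.2 _ h1).symm
    exact (comm_conj h2).symm.eq
  by_cases hJ'card : Nat.card J' = p
  · -- `J' = E₁`
    have hJ'E : E₁ = J' := Subgroup.eq_of_le_of_card_ge hE₁J' (by rw [hJ'card, hE₁card])
    have hcen : ∀ y ∈ T, (∀ t ∈ T, Commute y t) → y ∈ E₁ := by
      intro y hy hyc
      rw [hJ'E]
      exact ⟨hy, mem_centralizer_iff.mpr fun g hg => (hyc g hg).symm.eq⟩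
    have hmemT : ρ a₀ ∈ T := by
      have h1 : (⟨ρ a₀, haP⟩ : P) ∈ TR := by
        refine Cfsg.Agent.H28.VecB.order_p_mem hPp hp2 hZRc hZRcard hTR ?_ (Subtype.ext hap)
        intro y hy hyc
        refine Subgroup.mem_subgroupOf.mpr (hcen y.1 ⟨y, hy, rfl⟩ ?_)
        rintro _ ⟨t, ht, rfl⟩
        exact congrArg Subtype.val (hyc t ht).eq
      exact ⟨_, h1, rfl⟩
    obtain ⟨v, hv⟩ := case3 hp2 hcop hE₁T hE₁card hE₁fix hTp hTc hZcT hcen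
    refine ⟨v, fun h => ?_⟩
    rw [hconj]
    refine hv _ (hTinv h _ hmemT) ?_
    intro h1
    apply ha
    have h2 : ρ h * ρ a₀ = ρ h := mul_inv_eq_one.mp h1
    exact mul_eq_left.mp h2
  · by_cases haJ' : ∀ y ∈ J', Commute (ρ a₀) y
    · exact caseA1 ρ P₀ hP₀n hP₀ hcop hirr ha₀ ha IH hJ'c hJ'p (hfixprin J' hJ'ne hJ'inv) hJ'inv
        hJ'card hJ'ne haJ'
    · -- the non-commuting case
      obtain ⟨v, hv⟩ := caseA2 hJ'c hJ'p hcop hE₁J' hE₁card hE₁fix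
      refine ⟨v, fun h => ?_⟩
      rw [hconj]
      have hxP : ρ h * ρ a₀ * (ρ h)⁻¹ ∈ P := hPinv h _ haP
      refine hv _ ?_ ?_ ?_
      · intro y hy
        have h1 := hTc y hy.1
        have h2 : y * (ρ h * ρ a₀ * (ρ h)⁻¹) * y⁻¹ * (ρ h * ρ a₀ * (ρ h)⁻¹)⁻¹ ∈ E₁ :=
          ((hTmem y).mp hy.1).2.2 _ hxP
        have h3 := E₁.inv_mem h2
        convert h3 using 1
        group
      · intro z hz
        exact (hz.2.2 _ hxP).symm
      · push Not at haJ'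
        obtain ⟨y, hy, hay⟩ := haJ'
        refine ⟨ρ h * y * (ρ h)⁻¹, hJ'inv h y hy, fun hcomm => hay ?_⟩
        -- conjugate back
        have h1 : Commute (ρ h * ρ a₀ * (ρ h)⁻¹) (ρ h * y * (ρ h)⁻¹) := hcomm
        have h2 := h1.eq
        show ρ a₀ * y = y * ρ a₀
        have h3 : ρ h * (ρ a₀ * y) * (ρ h)⁻¹ = ρ h * (y * ρ a₀) * (ρ h)⁻¹ := by
          calc ρ h * (ρ a₀ * y) * (ρ h)⁻¹
              = (ρ h * ρ a₀ * (ρ h)⁻¹) * (ρ h * y * (ρ h)⁻¹) := by group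
            _ = (ρ h * y * (ρ h)⁻¹) * (ρ h * ρ a₀ * (ρ h)⁻¹) := h2
            _ = ρ h * (y * ρ a₀) * (ρ h)⁻¹ := by group
        exact mul_left_cancel (mul_right_cancel h3)

/-- **The vector**: strong induction on `|V|`. -/
theorem core (hp2 : p ≠ 2) : ∀ (n : ℕ) (V : Type u) [CommGroup V] [Finite V], Nat.card V = n →
    ∀ (H₁ : Type u) [Group H₁] [Finite H₁] (ρ : H₁ →* MulAut V) (P₁ : Subgroup H₁), P₁.Normal →
    IsPGroup p P₁ → p.Coprime (Nat.card V) →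
    (∀ W : Subgroup V, (∀ h, ∀ w ∈ W, ρ h w ∈ W) → W = ⊥ ∨ W = ⊤) →
    ∀ a₁ ∈ P₁, ρ a₁ ≠ 1 → ∃ v : V, ∀ h, ρ (h * a₁ * h⁻¹) v ≠ v := by
  intro n
  induction n using Nat.strong_induction_on with
  | _ n ih =>
  intro V _ _ hn H₁ _ _ ρ P₁ hP₁n hP₁ hcop hirr a₁ ha₁ ha
  have hpp : p.Prime := hp.out
  have IH : CoreIH.{u} p (Nat.card V) := by
    intro V₁ _ _ hlt H₂ _ _ ρ₂ P₂ hP₂n hP₂ hcop₂ hirr₂ a₂ ha₂ ha₂1
    exact ih _ (hn ▸ hlt) V₁ rfl H₂ ρ₂ P₂ hP₂n hP₂ hcop₂ hirr₂ a₂ ha₂ ha₂1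
  -- a power acting with order `p`
  have hord : ∃ e : ℕ, orderOf (ρ a₁) = p ^ (e + 1) := by
    obtain ⟨k, hk⟩ := IsPGroup.iff_orderOf.mp hP₁ ⟨a₁, ha₁⟩
    have h1 : orderOf a₁ = p ^ k := by
      rw [← hk, Subgroup.orderOf_mk]
    have h2 : orderOf (ρ a₁) ∣ p ^ k := h1 ▸ orderOf_map_dvd ρ a₁
    obtain ⟨j, -, hj⟩ := (Nat.dvd_prime_pow hpp).mp h2
    rcases j with _ | e
    · exfalso
      apply ha
      rw [pow_zero] at hj
      exact orderOf_eq_one_iff.mp hj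
    · exact ⟨e, hj⟩
  obtain ⟨e, he⟩ := hord
  have hb : ρ (a₁ ^ p ^ e) ≠ 1 := by
    rw [map_pow]
    intro h
    have h1 := orderOf_dvd_of_pow_eq_one h
    rw [he] at h1
    have h2 := (Nat.pow_dvd_pow_iff_le_right hpp.one_lt).mp h1
    omega
  have hbp : ρ (a₁ ^ p ^ e) ^ p = 1 := by
    rw [map_pow, ← pow_mul, ← pow_succ, ← he, pow_orderOf_eq_one]
  obtain ⟨v, hv⟩ := core_step hp2 ρ P₁ hP₁n hP₁ hcop hirr (P₁.pow_mem ha₁ _) hb hbp IH
  refine ⟨v, fun h hfix => hv h ?_⟩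
  have h1 : h * a₁ ^ p ^ e * h⁻¹ = (h * a₁ * h⁻¹) ^ p ^ e := by rw [conj_pow]
  rw [h1, map_pow]
  have h2 : ∀ i : ℕ, (ρ (h * a₁ * h⁻¹) ^ i) v = v := by
    intro i
    induction i with
    | zero => rfl
    | succ i ih =>
      rw [pow_succ]
      show (ρ (h * a₁ * h⁻¹) ^ i) (ρ (h * a₁ * h⁻¹) v) = v
      rw [hfix, ih]
  exact h2 _

end Cfsg.Agent.H28.VecD
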